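import Cfsg.Agent.H303.RuMain

set_option autoImplicit false
set_option linter.style.haveILetI false
set_option linter.unnecessarySimpa false

/-! 2-groups of Rudvalis type: transport along isomorphisms. -/

namespace Cfsg.Agent.H303.RuMain

open Subgroup

local notation "Zu" => Subgroup.upperCentralSeries

namespace Hyp

theorem mem_upper_equiv {T T' : Type*} [Group T] [Group T'] (e : T ≃* T') {j : ℕ} {x : T} :
    e x ∈ Zu T' j ↔ x ∈ Zu T j := by
  have h1 := Subgroup.comap_upperCentralSeries e j
  rw [← h1]
  rfl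

theorem congr {T T' : Type*} [Group T] [Group T'] {W : Subgroup T} (h : Hyp T W) (e : T ≃* T') :
    Hyp T' (W.map e.toMonoidHom) := by
  have := h.fin
  have hfin : Finite T' := Finite.of_equiv T e.toEquiv
  let eW : ↥W ≃* ↥(W.map e.toMonoidHom) := e.subgroupMap W
  have hfr : ∀ x, x ∈ frattini ↥(W.map e.toMonoidHom) → eW.symm x ∈ frattini ↥W := by
    intro x hx
    exact frattini_le_comap_frattini_of_surjective (φ := eW.symm.toMonoidHom) eW.symm.surjective hx
  refine ⟨hfin, ?_, ?_, ?_, ?_, ?_, ?_⟩
  · exact h.two.of_equiv e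
  · rw [← Nat.card_congr e.toEquiv]; exact h.ha
  · rw [← h.hb]
    refine (Nat.card_congr (e.toEquiv.subtypeEquiv fun x => ?_)).symm
    exact (mem_upper_equiv e).symm
  · ext y
    obtain ⟨x, rfl⟩ := e.surjective y
    rw [Subgroup.mem_centralizer_iff]
    have h1 : e x ∈ W.map e.toMonoidHom ↔ x ∈ W := by
      rw [Subgroup.mem_map]
      constructor
      · rintro ⟨z, hz, hz'⟩
        have : z = x := e.injective hz'
        rwa [← this]
      · intro hx
        exact ⟨x, hx, rfl⟩
    rw [h1, h.mem_W]
    constructor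
    · intro h2 z hz
      obtain ⟨z', rfl⟩ := e.surjective z
      rw [← map_mul, ← map_mul, h2 z' ((mem_upper_equiv e).1 hz)]
    · intro h2 z hz
      apply e.injective
      rw [map_mul, map_mul]
      exact h2 _ ((mem_upper_equiv e).2 hz)
  · refine le_trans (Nat.card_le_card_of_injective
      (fun w : ↥(frattini ↥(W.map e.toMonoidHom)) => (⟨eW.symm w, hfr w w.2⟩ : ↥(frattini ↥W))) ?_) h.hc
    intro a b hab
    exact Subtype.ext (eW.symm.injective (congrArg Subtype.val hab))
  · intro U hU x hx
    have h1 : (U.comap eW.toMonoidHom).index = U.index :=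
      Subgroup.index_comap_of_surjective _ eW.surjective
    have h2 := h.hd (U.comap eW.toMonoidHom) (by rw [h1]; exact hU) (hfr x hx)
    have h3 : eW (eW.symm x) ∈ U := h2
    rwa [MulEquiv.apply_symm_apply] at h3

end Hyp

end Cfsg.Agent.H303.RuMain
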