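import Cfsg.Agent.H303.RsKill

set_option autoImplicit false
set_option linter.style.haveILetI false
set_option linter.unnecessarySimpa false

/-! 2-groups of Rudvalis type modulo `Z_1`: no large extraspecial subgroup of order `2^7`. -/

namespace Cfsg.Agent.H303.RuMain

open Subgroup
open scoped commutatorElement

local notation "Zu" => Subgroup.upperCentralSeries

variable {T : Type*} [Group T]

namespace Hyp

variable {W : Subgroup T}

/-- the preimage in `T` of a large extraspecial subgroup of order `2^7` of `T/Z_1` -/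
theorem no_extra_quot' (h : Hyp T W) {Q : Subgroup T} (hQ : Q.Normal) (hc : Nat.card Q = 2 ^ 8)
    (hsq : ∀ x ∈ Q, x * x ∈ Zu T 2) (hcomm : ∀ x ∈ Q, ∀ y ∈ Q, ⁅x, y⁆ ∈ Zu T 2)
    (hZ : ∀ x ∈ Q, (∀ y ∈ Q, ⁅x, y⁆ ∈ Zu T 1) → x ∈ Zu T 2) : False := by
  have := h.fin
  have hWn := h.normalW
  have h3 := h.Z3_le hQ (by rw [hc]; norm_num)
  have h2W : Zu T 2 ≤ W := le32.trans h.Z3_le_W
  obtain ⟨y, hy, hy2⟩ := h.exists_y
  obtain ⟨q, hq, hyq⟩ : ∃ q ∈ Q, ⁅y, q⁆ ∉ Zu T 1 := by
    by_contra hcon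
    push Not at hcon
    exact hy2 (hZ y (h3 hy) hcon)
  have hqW : q ∉ W := by
    intro h1
    apply hyq
    have h2 := h.mem_W.1 h1 y hy
    rw [commutatorElement_eq_one_iff_mul_comm.2 h2]
    exact one_mem _
  -- indices
  have h7 : (W.subgroupOf Q).index * (Q ⊔ W).index = 8 := by
    have h8 := Subgroup.relIndex_mul_index (le_sup_right : W ≤ Q ⊔ W)
    rw [h.orders.1] at h8
    have h9 : W.relIndex (Q ⊔ W) = W.relIndex Q := by
      rw [Subgroup.relIndex_sup_right]
    rw [h9] at h8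
    exact h8
  have h6 := (W.subgroupOf Q).card_mul_index
  rw [hc] at h6
  set X : Subgroup (T ⧸ Zu T 3) := (Q ⊔ W).map (QuotientGroup.mk' (Zu T 3)) with hX
  have hXi : X.index = (Q ⊔ W).index := by
    rw [hX]
    apply Subgroup.index_map_eq
    · exact QuotientGroup.mk'_surjective _
    · rw [QuotientGroup.ker_mk']
      exact h3.trans le_sup_left
  have h8 : Nat.card ↥((Q ⊓ W).map (QuotientGroup.mk' (Zu T 3))) * 8 = Nat.card (W.subgroupOf Q) := by
    have e1 : Nat.card (W.subgroupOf Q) = Nat.card ↥(Q ⊓ W) := by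
      have := Nat.card_congr (Subgroup.equivMapOfInjective (W.subgroupOf Q) Q.subtype Q.subtype_injective).toEquiv
      rwa [Subgroup.subgroupOf_map_subtype, inf_comm] at this
    have e2 : Nat.card ↥((Q ⊓ W).map (QuotientGroup.mk' (Zu T 3))) * Nat.card ↥(Zu T 3) = Nat.card ↥(Q ⊓ W) := by
      have h9 : Zu T 3 ≤ Q ⊓ W := le_inf h3 h.Z3_le_W
      have h10 := ((Q ⊓ W).map (QuotientGroup.mk' (Zu T 3))).card_mul_index
      have h11 : ((Q ⊓ W).map (QuotientGroup.mk' (Zu T 3))).index = (Q ⊓ W).index := by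
        apply Subgroup.index_map_eq
        · exact QuotientGroup.mk'_surjective _
        · rw [QuotientGroup.ker_mk']
          exact h9
      have h12 := (Q ⊓ W).card_mul_index
      have h13 := (Zu T 3).card_mul_index
      have h14 : (Zu T 3).index = Nat.card (T ⧸ Zu T 3) := rfl
      rw [h14, ← h10, h11] at h13
      have h15 : 0 < (Q ⊓ W).index := Nat.pos_of_ne_zero Subgroup.index_ne_zero_of_finite
      apply Nat.eq_of_mul_eq_mul_right h15
      rw [h12, ← h13]; ring
    rw [e1, ← e2, h.cardZ 3 (by norm_num)]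
    norm_num
  have h9 : (Q ⊓ W).map (QuotientGroup.mk' (Zu T 3)) ≤ V W ⊓ centralizer (X : Set (T ⧸ Zu T 3)) := by
    rintro _ ⟨d, ⟨hdQ, hdW⟩, rfl⟩
    refine ⟨mem_V hdW, ?_⟩
    have h10 : X ≤ centralizer {QuotientGroup.mk' (Zu T 3) d} := by
      rw [hX, Subgroup.map_sup]
      refine sup_le ?_ ?_
      · rintro _ ⟨q, hq, rfl⟩
        rw [Subgroup.mem_centralizer_singleton_iff]
        have h11 := le32 (hcomm q hq d hdQ)
        have h12 : QuotientGroup.mk' (Zu T 3) ⁅q, d⁆ = 1 := (QuotientGroup.eq_one_iff _).2 h11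
        rw [map_commutatorElement, commutatorElement_eq_one_iff_mul_comm] at h12
        exact h12
      · rintro _ ⟨q, hq, rfl⟩
        rw [Subgroup.mem_centralizer_singleton_iff]
        exact h.V_facts.2.1 _ (mem_V hq) _ (mem_V hdW)
    exact Subgroup.mem_centralizer_iff.2 fun x hx => Subgroup.mem_centralizer_singleton_iff.1 (h10 hx)
  have h10 := (Subgroup.card_le_of_le h9).trans (h.card_fix X)
  rw [hXi] at h10
  -- the index is not 8
  have hn8 : (Q ⊔ W).index ≠ 1 := by
    intro h1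
    rw [Subgroup.index_eq_one] at h1
    obtain ⟨a, g, hag⟩ := h.not_comm
    apply hag
    have key : ∀ t : T, ∃ q ∈ Q, ((t : T) : T ⧸ W) = ((q : T) : T ⧸ W) := by
      intro t
      have h2 : t ∈ Q ⊔ W := by rw [h1]; exact mem_top t
      obtain ⟨q, hq, w, hw, rfl⟩ := Subgroup.mem_sup_of_normal_right.1 h2
      exact ⟨q, hq, by rw [QuotientGroup.mk_mul, (QuotientGroup.eq_one_iff w).2 hw, mul_one]⟩
    obtain ⟨a', ha', ea⟩ := key a
    obtain ⟨g', hg', eg⟩ := key g
    rw [← QuotientGroup.eq_one_iff]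
    have h2 := h2W (hcomm a' ha' g' hg')
    rw [← QuotientGroup.eq_one_iff] at h2
    change QuotientGroup.mk' W ⁅a', g'⁆ = 1 at h2
    change QuotientGroup.mk' W ⁅a, g⁆ = 1
    rw [map_commutatorElement] at h2 ⊢
    change ⁅((a : T) : T ⧸ W), ((g : T) : T ⧸ W)⁆ = 1
    rw [ea, eg]
    exact h2
  -- the index is not 1
  have hn1 : (W.subgroupOf Q).index ≠ 1 := by
    rw [Ne, Subgroup.index_eq_one, Subgroup.subgroupOf_eq_top]
    intro h1
    exact hqW (h1 hq)
  -- the index is not 2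
  have hn2 : (W.subgroupOf Q).index ≠ 2 := by
    intro h1
    have hu : ⁅y, q⁆ ∈ Zu T 2 := comm_mem hy q
    set u := ⁅y, q⁆ with hu_def
    have hu3 := le32 hu
    have hyq' : q * y * q⁻¹ = u * y := by
      have e : q * y * q⁻¹ = u⁻¹ * y := by
        rw [hu_def, commutatorElement_def]; group
      have e2 : u⁻¹ = u := by
        have := h.sq_Z3 u hu3
        rw [pow_two] at this
        exact inv_eq_of_mul_eq_one_left this
      rw [e, e2]
    have hqu : u * q = q * u := by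
      have h4 : q * q ∈ W := h2W (hsq q hq)
      have h5 := h.mem_W.1 h4 y hy
      have h6 : q * (q * y * q⁻¹) * q⁻¹ = y := by
        calc q * (q * y * q⁻¹) * q⁻¹ = (q * q * y) * (q * q)⁻¹ := by group
          _ = y := by rw [← h5]; group
      rw [hyq'] at h6
      have h7 : (q * u * q⁻¹) * (u * y) = y := by
        calc (q * u * q⁻¹) * (u * y) = (q * u * q⁻¹) * (q * y * q⁻¹) := by rw [hyq']
          _ = q * (u * y) * q⁻¹ := by group
          _ = y := h6
      have h8 : (q * u * q⁻¹) * u = 1 := by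
        have : (q * u * q⁻¹) * u * y = y := by rw [mul_assoc, h7]
        exact mul_eq_right.1 this
      have h9 : q * u * q⁻¹ = u := by
        have h10 := h.sq_Z3 u hu3
        rw [pow_two] at h10
        have h11 : (q * u * q⁻¹) * u = u * u := by rw [h8, h10]
        exact mul_right_cancel h11
      rw [mul_inv_eq_iff_eq_mul] at h9
      exact h9.symm
    have hq2 : ∀ z ∈ Zu T 2, z * q = q * z := fun z hz => h.cent_Z2 hu hyq hqu hz
    -- `u` is not central
    apply hyq
    rw [Subgroup.upperCentralSeries_one, Subgroup.mem_center_iff]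
    intro t
    have h4 : t * q * t⁻¹ ∈ Q := hQ.conj_mem q hq t
    have h5 : t * q * t⁻¹ ∉ W := by
      intro h5
      apply hqW
      have := hWn.conj_mem _ h5 t⁻¹
      have e : t⁻¹ * (t * q * t⁻¹) * t⁻¹⁻¹ = q := by group
      rwa [e] at this
    have h6 : t * q * t⁻¹ * q⁻¹ ∈ W := by
      have h7 := Subgroup.mul_mem_iff_of_index_two h1 (a := ⟨t * q * t⁻¹, h4⟩) (b := ⟨q⁻¹, inv_mem hq⟩)
      simp only [Subgroup.mem_subgroupOf] at h7
      refine h7.2 (iff_of_false h5 ?_)
      rwa [inv_mem_iff]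
    set c := t * q * t⁻¹ * q⁻¹ with hc_def
    have hcomm3 : ∀ z ∈ Zu T 3, z * c = c * z := h.mem_W.1 h6
    have hwy : t * y * t⁻¹ * y⁻¹ ∈ Zu T 2 := by
      have h7 := comm_mem (inv_mem hy) t
      have h8 : ⁅y⁻¹, t⁆⁻¹ ∈ Zu T 2 := inv_mem h7
      have h9 := (inferInstance : (Zu T 2).Normal).conj_mem _ h8 y
      have e : y * ⁅y⁻¹, t⁆⁻¹ * y⁻¹ = y * (t * y⁻¹ * t⁻¹ * y) * y⁻¹ := by
        rw [commutatorElement_def]; group
      rw [e] at h9
      have h10 := inv_mem h9
      have e2 : (y * (t * y⁻¹ * t⁻¹ * y) * y⁻¹)⁻¹ = t * y * t⁻¹ * y⁻¹ := by group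
      rwa [e2] at h10
    set w := t * y * t⁻¹ * y⁻¹ with hw_def
    have hty : t * y * t⁻¹ = w * y := by rw [hw_def]; group
    have e1 : t * (q * y * q⁻¹) * t⁻¹ = c * (q * (t * y * t⁻¹) * q⁻¹) * c⁻¹ := by
      rw [hc_def]; group
    have h8 : q * (t * y * t⁻¹) * q⁻¹ ∈ Zu T 3 :=
      (inferInstance : (Zu T 3).Normal).conj_mem _ ((inferInstance : (Zu T 3).Normal).conj_mem _ hy t) q
    have e2 : c * (q * (t * y * t⁻¹) * q⁻¹) * c⁻¹ = q * (t * y * t⁻¹) * q⁻¹ := by
      rw [← hcomm3 _ h8, mul_inv_cancel_right]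
    rw [e2, hyq', hty] at e1
    have e3 : q * (w * y) * q⁻¹ = w * (u * y) := by
      calc q * (w * y) * q⁻¹ = (q * w) * (y * q⁻¹) := by group
        _ = (w * q) * (y * q⁻¹) := by rw [hq2 w hwy]
        _ = w * (q * y * q⁻¹) := by group
        _ = w * (u * y) := by rw [hyq']
    have e4 : t * (u * y) * t⁻¹ = (t * u * t⁻¹) * (w * y) := by
      rw [← hty]; group
    rw [e3, e4] at e1
    have e5 : (t * u * t⁻¹) * w * y = w * u * y := by
      rw [mul_assoc (t * u * t⁻¹) w y, mul_assoc w u y]; exact e1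
    have e6 := mul_right_cancel e5
    rw [h.comm_Z3 (le32 hwy) hu3] at e6
    have e7 := mul_right_cancel e6
    exact mul_inv_eq_iff_eq_mul.1 e7
  set s := (W.subgroupOf Q).index with hs
  set m := (Q ⊔ W).index with hm
  set d := Nat.card ↥((Q ⊓ W).map (QuotientGroup.mk' (Zu T 3))) with hd
  rw [← h8] at h6
  have h11 : s ≤ 8 := Nat.le_of_dvd (by norm_num) (Dvd.intro _ h7)
  have h12 : s = 0 ∨ s = 1 ∨ s = 2 ∨ s = 3 ∨ s = 4 ∨ s = 5 ∨ s = 6 ∨ s = 7 ∨ s = 8 := by omega
  rcases h12 with h12 | h12 | h12 | h12 | h12 | h12 | h12 | h12 | h12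
  · rw [h12] at h7; omega
  · exact hn1 h12
  · exact hn2 h12
  · rw [h12] at h7; omega
  · rw [h12] at h7 h6
    have h13 : m = 2 := by omega
    rw [h13] at h10
    omega
  · rw [h12] at h7; omega
  · rw [h12] at h7; omega
  · rw [h12] at h7; omega
  · rw [h12] at h7; omega

end Hyp

end Cfsg.Agent.H303.RuMain
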