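import Cfsg.Agent.H303.RsQuatB
import Cfsg.Agent.H327.A16.Lg

set_option autoImplicit false
set_option linter.style.haveILetI false
set_option linter.unnecessarySimpa false

/-! A group with a Sylow 2-subgroup of Rudvalis type has no long `SL₂(q)`. -/

namespace Cfsg.Agent.H303.RsLong

open Subgroup Cfsg
open Cfsg.Agent.Cit (cj mem_cj conj_mem_cj cls self_mem_cls Syl OmS IsGQ syl_inf mem_OmS_of_le)
open Cfsg.Agent.H327.A16 (LongAt Lg)

variable {X : Type*} [Group X]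

theorem cj_mem_OmS [Finite X] {Om : Set (Subgroup X)} (hO : Cit.Hyp Om) {S K : Subgroup X} (hS : IsPGroup 2 S)
    (hK : K ∈ OmS Om S) {s : X} (hs : s ∈ S) : cj s K ∈ OmS Om S := by
  refine mem_OmS_of_le (hO.conj K hK.1 s) ((syl_inf hS hK).cj s) ?_
  intro x hx
  rw [mem_cj] at hx
  have h1 := mul_mem (mul_mem hs hx.2) (inv_mem hs)
  have e : s * (s⁻¹ * x * s) * s⁻¹ = x := by group
  rwa [e] at h1

/-- the subgroup `Q` of `S` -/
theorem exists_quat [Finite X] {Om : Set (Subgroup X)} (hO : Cit.Hyp Om) {S K : Subgroup X} (hS : IsPGroup 2 S)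
    (hK : K ∈ OmS Om S) : ∃ Q : Subgroup ↥S, IsGQ Q ∧ ∀ t : ↥S, (∀ x ∈ Q, t * x * t⁻¹ ∈ Q) ∨
      ∀ x ∈ Q, ∀ y ∈ Q, x * (t * y * t⁻¹) = (t * y * t⁻¹) * x := by
  refine ⟨(K ⊓ S).subgroupOf S, ?_, ?_⟩
  · obtain ⟨n, ⟨e⟩⟩ := hO.isGQ hK.1 (syl_inf hS hK)
    exact ⟨n, ⟨(subgroupOfEquivOfLe inf_le_right).trans e⟩⟩
  · intro t
    by_cases h1 : cj (t : X) K = K
    · left
      intro x hx
      refine ⟨?_, (t * x * t⁻¹).2⟩
      have h2 : (t : X) * x * (t : X)⁻¹ ∈ cj (t : X) K := conj_mem_cj hx.1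
      rw [h1] at h2
      exact h2
    · right
      intro x hx y hy
      apply Subtype.ext
      exact hO.comm hS hK (cj_mem_OmS hO hS hK t.2) (Ne.symm h1) hx ⟨conj_mem_cj hy.1, (t * y * t⁻¹).2⟩

theorem not_long [Finite X] {S : Sylow 2 X} {W : Subgroup ↥(S : Subgroup X)}
    (h : RuMain.Hyp ↥(S : Subgroup X) W) (q : ℕ) : ¬ OddHalf.LongSL.HasLong q X := by
  rintro ⟨j, J, hJ⟩
  have hp : Fact (Nat.Prime 2) := ⟨Nat.prime_two⟩
  have hJ' : LongAt q X j J := hJ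
  obtain ⟨M, hL⟩ := hJ'.exists_lg
  obtain ⟨Q, hQ⟩ := Cit.Hyp.exists_syl M
  obtain ⟨P, hP⟩ := hQ.2.1.exists_le_sylow
  obtain ⟨g, hg⟩ := MulAction.exists_smul_eq X P S
  have hK : cj g M ∈ OmS (cls M) (S : Subgroup X) := by
    refine mem_OmS_of_le (hL.hyp.conj M (self_mem_cls M) g) (hQ.cj g) ?_
    rw [← hg, Sylow.coe_subgroup_smul]
    rintro _ ⟨x, hx, rfl⟩
    exact ⟨x, hP hx, rfl⟩
  obtain ⟨Q1, h1, h2⟩ := exists_quat hL.hyp S.isPGroup' hK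
  exact RsQuat.no_quat h h1 h2

end Cfsg.Agent.H303.RsLong
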