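import Cfsg.Agent.H303.RsDblA
import Cfsg.Agent.H303.RsLong
import Cfsg.Agent.KFacts.SuzLarge
import Cfsg.Agent.OddCyclic.CoverTrans

set_option autoImplicit false
set_option linter.style.haveILetI false
set_option linter.unnecessarySimpa false

/-! Groups whose Sylow 2-subgroups are 2-groups of Rudvalis type modulo `Z_1`: the Suzuki group, `PSL₂(q)`,
long `SL₂(q)`. -/

namespace Cfsg.Agent.H303.RsDbl

open Cfsg Cfsg.Agent.H303.RuMain Cfsg.Agent.Co2Type.Quad
open scoped commutatorElement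

local notation "Zu" => Subgroup.upperCentralSeries

variable {T : Type*} [Group T] {W : Subgroup T} (h : Hyp T W) {L : Type*} [Group L] [Finite L]
  (P : Sylow 2 L) (e : T ⧸ Zu T 1 ≃* ↥(P : Subgroup L))

include h in
theorem card_quot : Nat.card (T ⧸ Zu T 1) = 2 ^ 13 := by
  have := h.fin
  have h1 := (Zu T 1).card_mul_index
  rw [h.cardZ 1 (by norm_num), h.orders.2.2.1] at h1
  have h2 : (Zu T 1).index = Nat.card (T ⧸ Zu T 1) := rfl
  rw [h2] at h1
  omega

omit [Finite L] in
include h e in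
theorem card_P : Nat.card P = 2 ^ 13 := by
  rw [← Nat.card_congr e.toEquiv]
  exact card_quot h

include h e in
/-- A large extraspecial subgroup of order `2 ^ 7` whose centre has odd index centraliser. -/
theorem not_large {Q : Subgroup L} {z : L} (hL : Large Q z)
    (hc : Nat.card Q = 2 ^ 7) (ho : Odd (Subgroup.centralizer ({z} : Set L)).index) : False := by
  have : Fact (Nat.Prime 2) := ⟨Nat.prime_two⟩
  have := h.fin
  have hQ2 : IsPGroup 2 Q := IsPGroup.of_card hc
  have hQC : Q ≤ Subgroup.centralizer ({z} : Set L) := fun x hx =>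
    Subgroup.mem_centralizer_singleton_iff.2 (hL.comm_z x hx)
  obtain ⟨P1, hP1⟩ := (hQ2.comap_subtype (K := Subgroup.centralizer ({z} : Set L))).exists_le_sylow
  have hcard : Nat.card ↥((P1 : Subgroup ↥(Subgroup.centralizer ({z} : Set L))).map
      (Subgroup.centralizer ({z} : Set L)).subtype) = 2 ^ (Nat.card L).factorization 2 := by
    rw [Subgroup.card_map_of_injective (Subgroup.subtype_injective _), P1.card_eq_multiplicity,
      ← (Subgroup.centralizer ({z} : Set L)).card_mul_index, Nat.factorization_mul Nat.card_pos.ne'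
        (Subgroup.index_ne_zero_of_finite)]
    have h1 : (Subgroup.centralizer ({z} : Set L)).index.factorization 2 = 0 :=
      Nat.factorization_eq_zero_of_not_dvd (by
        intro h2
        rw [Nat.odd_iff] at ho
        omega)
    rw [Finsupp.add_apply, h1, add_zero]
  let P2 : Sylow 2 L := Sylow.ofCard _ hcard
  have hP2 : (P2 : Subgroup L) = (P1 : Subgroup ↥(Subgroup.centralizer ({z} : Set L))).map
      (Subgroup.centralizer ({z} : Set L)).subtype := rfl
  have hQP : Q ≤ (P2 : Subgroup L) := by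
    intro x hx
    rw [hP2]
    exact ⟨⟨x, hQC hx⟩, hP1 hx, rfl⟩
  have hPz : ∀ t ∈ (P2 : Subgroup L), t * z = z * t := by
    intro t ht
    rw [hP2] at ht
    obtain ⟨y, -, rfl⟩ := ht
    exact Subgroup.mem_centralizer_singleton_iff.1 y.2
  let e2 : T ⧸ Zu T 1 ≃* ↥(P2 : Subgroup L) := e.trans (P.equiv P2)
  let φ : T →* ↥(P2 : Subgroup L) := e2.toMonoidHom.comp (QuotientGroup.mk' (Zu T 1))
  have hφs : Function.Surjective φ := e2.surjective.comp (QuotientGroup.mk'_surjective _)
  have hφ1 : ∀ t : T, φ t = 1 ↔ t ∈ Zu T 1 := by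
    intro t
    change e2 (QuotientGroup.mk' (Zu T 1) t) = 1 ↔ _
    rw [map_eq_one_iff e2 e2.injective]
    exact QuotientGroup.eq_one_iff t
  have hφc : ∀ x y : T, ⁅x, y⁆ ∈ Zu T 1 ↔ (φ x : L) * φ y = φ y * φ x := by
    intro x y
    rw [← hφ1, map_commutatorElement, commutatorElement_eq_one_iff_mul_comm]
    exact ⟨fun h1 => congrArg Subtype.val h1, fun h1 => Subtype.ext h1⟩
  have hz2 : ∀ x : T, ((φ x : L) = 1 ∨ (φ x : L) = z) → x ∈ Zu T 2 := by
    intro x hx
    refine (Subgroup.mem_upperCentralSeries_succ_iff (n := 1)).2 fun t => ?_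
    rw [hφc]
    rcases hx with hx | hx
    · rw [hx, one_mul, mul_one]
    · rw [hx]; exact (hPz _ (φ t).2).symm
  have hmem : ∀ x : T, x ∈ (Q.subgroupOf (P2 : Subgroup L)).comap φ ↔ (φ x : L) ∈ Q := fun x => Iff.rfl
  refine h.no_extra_quot' (Q := (Q.subgroupOf (P2 : Subgroup L)).comap φ) ?_ ?_ ?_ ?_ ?_
  · have : (Q.subgroupOf (P2 : Subgroup L)).Normal := by
      refine ⟨fun n hn g => ?_⟩
      exact hL.conj_mem g (hPz g g.2) n hn
    infer_instance
  · have h1 := ((Q.subgroupOf (P2 : Subgroup L)).comap φ).card_mul_index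
    have h2 := (Q.subgroupOf (P2 : Subgroup L)).card_mul_index
    rw [Subgroup.index_comap_of_surjective _ hφs, h.orders.2.2.1] at h1
    rw [Nat.card_congr (Subgroup.subgroupOfEquivOfLe hQP).toEquiv, hc, card_P h P2 e2] at h2
    have h3 : (Q.subgroupOf (P2 : Subgroup L)).index = 2 ^ 6 := by omega
    rw [h3] at h1
    omega
  · intro x hx
    apply hz2
    rw [map_mul]
    exact hL.sq _ ((hmem x).1 hx)
  · intro x hx y hy
    apply hz2
    have hxz := hL.comm_z _ ((hmem x).1 hx)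
    have hyz := hL.comm_z _ ((hmem y).1 hy)
    rw [map_commutatorElement]
    rcases hL.comm _ ((hmem x).1 hx) _ ((hmem y).1 hy) with h1 | h1
    · left
      have h2 : φ x * φ y = φ y * φ x := Subtype.ext h1
      rw [commutatorElement_eq_one_iff_mul_comm.2 h2]
      rfl
    · right
      change (φ x : L) * φ y * (φ x : L)⁻¹ * (φ y : L)⁻¹ = z
      rw [h1]
      calc (φ y : L) * φ x * z * (φ x : L)⁻¹ * (φ y : L)⁻¹ = (φ y : L) * (φ x * z) * (φ x : L)⁻¹ * (φ y : L)⁻¹ := by
            group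
        _ = (φ y : L) * z * (φ y : L)⁻¹ := by rw [hxz]; group
        _ = z := by rw [hyz]; group
  · intro x hx hxy
    apply hz2
    refine hL.cent _ ((hmem x).1 hx) (fun y hy => ?_)
    obtain ⟨y', hy'⟩ := hφs ⟨y, hQP hy⟩
    have h1 : (φ y' : L) = y := congrArg Subtype.val hy'
    have h2 := (hφc x y').1 (hxy y' (by rw [hmem, h1]; exact hy))
    rwa [h1] at h2

include h in
theorem not_suz (hX : Spor.IsoSuz L) (P : Sylow 2 L) (e : T ⧸ Zu T 1 ≃* ↥(P : Subgroup L)) : False := by
  have : Fact (Nat.Prime 2) := ⟨Nat.prime_two⟩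
  obtain ⟨e'⟩ := hX
  have : Finite Cfsg.Spor.Suz := Finite.of_equiv L e'.toEquiv
  exact not_large h (P.mapSurjective (f := e'.toMonoidHom) e'.surjective)
    (e.trans (e'.subgroupMap (P : Subgroup L))) Cfsg.Agent.KFacts.SuzLarge.large Cfsg.Agent.KFacts.SuzR.card_R
    (by exact Cfsg.Agent.KFacts.SuzSheet.odd_index)

include h e in
/-- the Sylow 2-subgroups are not dihedral -/
theorem not_psl {F : Type*} [Field F] [Finite F] (hF : Odd (Nat.card F))
    (e' : L ≃* Matrix.ProjectiveSpecialLinearGroup (Fin 2) F) : False := by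
  classical
  have : Fact (Nat.Prime 2) := ⟨Nat.prime_two⟩
  have := h.fin
  obtain ⟨P2, r, s, hs1, hss, hrs, hsr, hP⟩ := OddCyclic.CoverTrans.exists_dihedral hF e'
  let e2 : T ⧸ Zu T 1 ≃* ↥(P2 : Subgroup L) := e.trans (P.equiv P2)
  let φ : T →* L := (P2 : Subgroup L).subtype.comp (e2.toMonoidHom.comp (QuotientGroup.mk' (Zu T 1)))
  have hφ1 : ∀ t : T, φ t = 1 ↔ t ∈ Zu T 1 := by
    intro t
    change (P2 : Subgroup L).subtype (e2 (QuotientGroup.mk' (Zu T 1) t)) = 1 ↔ _
    rw [map_eq_one_iff _ (Subgroup.subtype_injective _), map_eq_one_iff e2 e2.injective]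
    exact QuotientGroup.eq_one_iff t
  have hφP : ∀ t, φ t ∈ (P2 : Subgroup L) := fun t => (e2 (QuotientGroup.mk' (Zu T 1) t)).2
  have hsinv : s⁻¹ = s := inv_eq_of_mul_eq_one_left hss
  have hsrz : ∀ k : ℤ, s⁻¹ * r ^ k * s = r ^ (-k) := by
    intro k
    have h1 : s * r ^ k * s⁻¹ = r ^ (-k) := by
      rw [← conj_zpow, hsr, inv_zpow, zpow_neg]
    rw [hsinv] at h1 ⊢
    exact h1
  -- the subgroup of `W`
  let A : Subgroup ↥W := ((Subgroup.zpowers r).comap φ).subgroupOf W
  have hA : ∀ x : ↥W, x ∈ A ↔ φ x ∈ Subgroup.zpowers r := fun x => Iff.rfl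
  have hAi : A.index ≤ 2 := by
    have h1 := RuBase.index_le_of_fun A (β := Bool) (fun x => decide (φ (x : T) ∈ Subgroup.zpowers r)) (by
      intro a b hab
      rw [hA]
      have hab' : φ a ∈ Subgroup.zpowers r ↔ φ b ∈ Subgroup.zpowers r := by simpa using hab
      rw [Subgroup.coe_mul, Subgroup.coe_inv, map_mul, map_inv]
      by_cases ha : φ a ∈ Subgroup.zpowers r
      · exact mul_mem (inv_mem ha) (hab'.1 ha)
      · have hb : φ b ∉ Subgroup.zpowers r := fun h2 => ha (hab'.2 h2)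
        obtain ⟨i, hi | hi⟩ := hP _ (hφP a)
        · exact absurd ⟨i, hi.symm⟩ ha
        obtain ⟨j, hj | hj⟩ := hP _ (hφP b)
        · exact absurd ⟨j, hj.symm⟩ hb
        rw [hi, hj]
        refine ⟨-(j - i), ?_⟩
        change r ^ (-(j - i)) = _
        rw [← hsrz (j - i)]
        have e3 : r ^ (j - i) = (r ^ i)⁻¹ * r ^ j := by
          rw [← zpow_neg, ← zpow_add]; congr 1; ring
        rw [e3]; group)
    simpa using h1
  -- a generator
  let ψ : ↥A →* ↥(Subgroup.zpowers r) := (φ.comp (W.subtype.comp A.subtype)).codRestrict (Subgroup.zpowers r)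
    (fun x => (hA x.1).1 x.2)
  obtain ⟨⟨_, a, rfl⟩, ha⟩ := (inferInstance : IsCyclic ↥ψ.range).exists_generator
  -- the map to `V`
  let θ : ↥A →* T ⧸ Zu T 3 := (QuotientGroup.mk' (Zu T 3)).comp (W.subtype.comp A.subtype)
  have h13 : Zu T 1 ≤ Zu T 3 := Hyp.le21.trans Hyp.le32
  have hθ2 : ∀ x : ↥A, θ x * θ x = 1 := by
    intro x
    rw [← map_mul]
    refine (QuotientGroup.eq_one_iff _).2 ?_
    have h1 := h.sq_W_mem (x : ↥W).2
    rw [pow_two] at h1
    exact h1
  have hθ : ∀ x : ↥A, θ x = 1 ∨ θ x = θ a := by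
    intro x
    obtain ⟨k, hk⟩ := Subgroup.mem_zpowers_iff.1 (ha ⟨ψ x, x, rfl⟩)
    have hk' : ψ a ^ k = ψ x := congrArg Subtype.val hk
    have h2 : θ x = θ a ^ k := by
      rw [← map_zpow]
      have h3 : φ ((a ^ k : ↥A) : ↥W) = φ (x : ↥W) := by
        have := congrArg Subtype.val hk'
        rw [← map_zpow] at this
        exact this
      refine (QuotientGroup.eq (s := Zu T 3)).2 (h13 ((hφ1 _).1 ?_))
      change φ (((x : ↥W) : T)⁻¹ * ((a ^ k : ↥A) : ↥W)) = 1
      rw [map_mul, map_inv, h3]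
      exact inv_mul_cancel _
    have h4 : ∀ m : ℤ, θ a ^ (m + m) = 1 := by
      intro m
      rw [← two_mul, zpow_mul, zpow_two, hθ2, one_zpow]
    rcases Int.even_or_odd k with ⟨m, rfl⟩ | ⟨m, rfl⟩
    · left
      rw [h2, h4]
    · right
      rw [h2, zpow_add_one, two_mul, h4, one_mul]
  have hcard : Nat.card ↥A ≤ 16 := by
    have h1 := θ.ker.card_mul_index
    have h2 : θ.ker.index ≤ 2 := by
      have h3 := RuBase.index_le_of_fun θ.ker (β := Bool) (fun x => decide (θ x = 1)) (by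
        intro x y hxy
        have hxy' : θ x = 1 ↔ θ y = 1 := by simpa using hxy
        rw [MonoidHom.mem_ker, map_mul, map_inv]
        by_cases hx : θ x = 1
        · rw [hx, hxy'.1 hx, inv_one, one_mul]
        · have hy : θ y ≠ 1 := fun h4 => hx (hxy'.2 h4)
          rw [(hθ x).resolve_left hx, (hθ y).resolve_left hy]
          exact inv_mul_cancel _)
      simpa using h3
    have h3 : Nat.card ↥θ.ker ≤ 8 := by
      have h4 : Nat.card ↥(Zu T 3) = 8 := by rw [h.cardZ 3 (by norm_num)]; norm_num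
      rw [← h4]
      refine Nat.card_le_card_of_injective (fun x : ↥θ.ker => (⟨((x : ↥A) : ↥W), (QuotientGroup.eq_one_iff _).1
        (MonoidHom.mem_ker.1 x.2)⟩ : ↥(Zu T 3))) ?_
      intro x y hxy
      exact Subtype.ext (Subtype.ext (Subtype.ext (congrArg (fun z : ↥(Zu T 3) => (z : T)) hxy)))
    rw [← h1]
    exact Nat.mul_le_mul h3 h2
  have h1 := A.card_mul_index
  rw [h.orders.2.2.2] at h1
  have h2 : Nat.card ↥A * A.index ≤ 16 * 2 := Nat.mul_le_mul hcard hAi
  rw [h1] at h2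
  norm_num at h2

end Cfsg.Agent.H303.RsDbl
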