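import Cfsg.Agent.H303.RsQuotA

set_option autoImplicit false
set_option linter.style.haveILetI false
set_option linter.unnecessarySimpa false

/-! 2-groups of Rudvalis type: generalised quaternion subgroups of `T / Z_1` whose conjugates are equal to it or
commute with it. The case `Q ≰ W`, and the conclusion. -/

namespace Cfsg.Agent.H303.RsQuat

open Subgroup
open scoped commutatorElement
open Cfsg.Agent.Cit (GQ IsGQ)
open Cfsg.Agent.H303.RuMain Cfsg.Agent.H303.RuMain.Hyp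

local notation "Zu" => Subgroup.upperCentralSeries

variable {T : Type*} [Group T] {W : Subgroup T}

theorem quotB (h : Hyp T W) {Q : Subgroup (T ⧸ Zu T 1)} {c v z : T ⧸ Zu T 1} {n : ℕ} (hQ : GQ Q c v z n) {a : ℕ}
    (hcard : Nat.card Q = 2 ^ (a + 3)) (hQW : ¬ Q.comap (QuotientGroup.mk' (Zu T 1)) ≤ W)
    (hconj : ∀ t : T ⧸ Zu T 1, (∀ x ∈ Q, t * x * t⁻¹ ∈ Q) ∨
      ∀ x ∈ Q, ∀ y ∈ Q, x * (t * y * t⁻¹) = (t * y * t⁻¹) * x) : False := by
  classical
  have := h.fin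
  have hWn := h.normalW
  have hZn : (Zu T 3).Normal := inferInstance
  set π := QuotientGroup.mk' (Zu T 1) with hπ
  have hsurj : Function.Surjective π := QuotientGroup.mk'_surjective _
  have hker1 : ∀ {t : T}, π t = 1 ↔ t ∈ Zu T 1 := fun {t} => QuotientGroup.eq_one_iff t
  set R := Q.comap π with hR
  have memR : ∀ {x : T}, x ∈ R ↔ π x ∈ Q := fun {x} => Iff.rfl
  obtain ⟨x, hxR, hxW⟩ := SetLike.not_le_iff_exists.1 hQW
  set f := QuotientGroup.mk' (Zu T 3) with hf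
  have hker : ∀ {t : T}, f t = 1 ↔ t ∈ Zu T 3 := fun {t} => QuotientGroup.eq_one_iff t
  let g : T ⧸ Zu T 1 →* T ⧸ Zu T 3 := QuotientGroup.map (Zu T 1) (Zu T 3) (MonoidHom.id T) (by
    rw [Subgroup.comap_id]; exact Z13)
  have hgπ : ∀ t : T, g (π t) = f t := fun t => rfl
  have hZ1R : Zu T 1 ≤ R := by
    intro y hy
    rw [memR, hker1.2 hy]
    exact one_mem _
  have hZ1W : Zu T 1 ≤ W := Z13.trans h.Z3_le_W
  have hcardmap : ∀ P : Subgroup T, Zu T 1 ≤ P → Nat.card P = 2 * Nat.card (P.map π) := by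
    intro P hP
    have h0 : (P.map π).comap π = P := by
      rw [Subgroup.comap_map_eq, QuotientGroup.ker_mk']
      exact sup_eq_left.2 hP
    have h1 := ((P.map π).comap π).card_mul_index
    rw [Subgroup.index_comap_of_surjective _ hsurj, h0] at h1
    have h2 := (P.map π).card_mul_index
    have h3 := (Zu T 1).card_mul_index
    have h4 : (Zu T 1).index = Nat.card (T ⧸ Zu T 1) := rfl
    rw [h4, ← h2, ← h1, h.cardZ 1 (by norm_num)] at h3
    have h5 : 0 < (P.map π).index := Nat.pos_of_ne_zero Subgroup.index_ne_zero_of_finite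
    apply Nat.eq_of_mul_eq_mul_right h5
    rw [← h3]; ring
  have hRmap : R.map π = Q := Subgroup.map_comap_eq_self_of_surjective hsurj Q
  have hcardR : Nat.card R = 2 * 2 ^ (a + 3) := by
    rw [hcardmap R hZ1R, hRmap, hcard]
  set W0 : Subgroup T := W ⊓ normalizer (R : Set T) with hW0
  have hW0W : W0 ≤ W := inf_le_left
  have hmemW0 : ∀ w ∈ W, (∀ x ∈ R, w * x * w⁻¹ ∈ R) → w ∈ W0 := fun w hw h1 =>
    ⟨hw, Subgroup.mem_normalizer_fintype h1⟩
  have hW0c : ∀ w ∈ W0, ⁅w, x⁆ ∈ R ⊓ W := by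
    rintro w ⟨hw, hwn⟩
    refine Subgroup.mem_inf.2 ⟨?_, ?_⟩
    · have h1 := (mem_normalizer_iff.1 hwn x).1 hxR
      have e : ⁅w, x⁆ = w * x * w⁻¹ * x⁻¹ := rfl
      rw [e]
      exact mul_mem h1 (inv_mem hxR)
    · have e : ⁅w, x⁆ = w * (x * w⁻¹ * x⁻¹) := by rw [commutatorElement_def]; group
      rw [e]
      exact mul_mem hw (hWn.conj_mem _ (inv_mem hw) x)
  -- the order of `W0`
  have hDQ : (R ⊓ W).map π ≤ Q := by
    rw [← hRmap]
    exact Subgroup.map_mono inf_le_left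
  have hD2 : ∀ d ∈ (R ⊓ W).map π, g d * g d = 1 := by
    rintro _ ⟨d, ⟨-, hd⟩, rfl⟩
    rw [hgπ, ← map_mul, hker, ← pow_two]
    exact h.sq_W_mem hd
  have hcase := image_cases hQ hcard hDQ g hD2
  have hmm : ((R ⊓ W).map π).map g = (R ⊓ W).map f := by
    rw [Subgroup.map_map]
    rfl
  rw [hmm] at hcase
  let H : Subgroup T := W0 ⊓ (centralizer {f x}).comap f
  have hHc : Nat.card H ≤ 2 ^ 7 := by
    apply card_cent_le h hxW (H := H) (inf_le_left.trans hW0W)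
    rintro w ⟨-, hw⟩
    rw [← hker, map_commutatorElement, commutatorElement_eq_one_iff_mul_comm]
    exact mem_centralizer_singleton_iff.1 hw
  have hHi : (H.subgroupOf W0).index ≤ Nat.card ((R ⊓ W).map f) := by
    apply RuBase.index_le_of_fun (H.subgroupOf W0) (fun w : ↥W0 => (⟨f ⁅(w : T), x⁆, mem_map_of_mem f (hW0c w w.2)⟩ :
      ↥((R ⊓ W).map f)))
    intro w w' hww
    have h1 : f ⁅(w : T), x⁆ = f ⁅(w' : T), x⁆ := congrArg (fun y : ↥((R ⊓ W).map f) => (y : T ⧸ Zu T 3)) hww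
    rw [mem_subgroupOf]
    refine Subgroup.mem_inf.2 ⟨mul_mem (inv_mem w.2) w'.2, ?_⟩
    rw [mem_comap, mem_centralizer_singleton_iff]
    rw [map_commutatorElement, map_commutatorElement, commutatorElement_def, commutatorElement_def] at h1
    have h2 := mul_right_cancel h1
    rw [Subgroup.coe_mul, Subgroup.coe_inv, map_mul, map_inv]
    calc (f w)⁻¹ * f w' * f x = (f w)⁻¹ * (f w' * f x * (f w')⁻¹) * f w' := by group
      _ = (f w)⁻¹ * (f w * f x * (f w)⁻¹) * f w' := by rw [h2]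
      _ = f x * ((f w)⁻¹ * f w') := by group
  have hHW0 : H ≤ W0 := inf_le_left
  have hW0card : Nat.card W0 ≤ 2 ^ 7 * Nat.card ((R ⊓ W).map f) := by
    have h1 := (H.subgroupOf W0).card_mul_index
    rw [Nat.card_congr (Subgroup.subgroupOfEquivOfLe hHW0).toEquiv] at h1
    rw [← h1]
    exact Nat.mul_le_mul hHc hHi
  set m := (W0.subgroupOf W).index with hm
  have hm1 : Nat.card W0 * m = 2 ^ 11 := by
    have h1 := (W0.subgroupOf W).card_mul_index
    rwa [Nat.card_congr (Subgroup.subgroupOfEquivOfLe hW0W).toEquiv, h.orders.2.2.2] at h1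
  -- the product of the conjugates
  letI := Fintype.ofFinite (↥W ⧸ W0.subgroupOf W)
  let F : ↥W ⧸ W0.subgroupOf W → Subgroup (T ⧸ Zu T 1) := fun q =>
    Q.map (MulAut.conj (π ((q.out : ↥W) : T))).toMonoidHom
  have hFc : ∀ q, Nat.card (F q) = 2 * 2 ^ (a + 2) := by
    intro q
    rw [Subgroup.card_map_of_injective (MulAut.conj _).injective, hcard]
    ring
  have hFcomm : ∀ q q', q ≠ q' → ∀ x ∈ F q, ∀ y ∈ F q', x * y = y * x := by
    rintro q q' hne _ ⟨x, hx, rfl⟩ _ ⟨y, hy, rfl⟩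
    set u : T ⧸ Zu T 1 := π ((q.out : ↥W) : T) with hu
    set u' : T ⧸ Zu T 1 := π ((q'.out : ↥W) : T) with hu'
    have h1 : ¬ ∀ x ∈ Q, (u⁻¹ * u') * x * (u⁻¹ * u')⁻¹ ∈ Q := by
      intro h2
      apply hne
      rw [← Quotient.out_eq q, ← Quotient.out_eq q']
      apply QuotientGroup.eq.2
      rw [mem_subgroupOf]
      refine hmemW0 _ (mul_mem (inv_mem q.out.2) q'.out.2) ?_
      intro x hx
      have h3 := h2 (π x) hx
      rw [memR]
      simp only [map_mul, map_inv]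
      simpa [hu, hu'] using h3
    have h2 := ((hconj (u⁻¹ * u')).resolve_left h1) x hx y hy
    show u * x * u⁻¹ * (u' * y * u'⁻¹) = u' * y * u'⁻¹ * (u * x * u⁻¹)
    calc u * x * u⁻¹ * (u' * y * u'⁻¹) = u * (x * ((u⁻¹ * u') * y * (u⁻¹ * u')⁻¹)) * u⁻¹ := by group
      _ = u * (((u⁻¹ * u') * y * (u⁻¹ * u')⁻¹) * x) * u⁻¹ := by rw [h2]
      _ = u' * y * u'⁻¹ * (u * x * u⁻¹) := by group
  have hFZ : ∀ q, ∃ z, ∀ x ∈ F q, (∀ y ∈ F q, x * y = y * x) → x = 1 ∨ x = z := by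
    intro q
    refine ⟨π ((q.out : ↥W) : T) * z * (π ((q.out : ↥W) : T))⁻¹, ?_⟩
    rintro _ ⟨x, hx, rfl⟩ hxy
    set u : T ⧸ Zu T 1 := π ((q.out : ↥W) : T) with hu
    show u * x * u⁻¹ = 1 ∨ u * x * u⁻¹ = u * z * u⁻¹
    have h1 : x = 1 ∨ x = z := by
      apply gq_center hQ hx
      intro y hy
      have h2 : u * x * u⁻¹ * (u * y * u⁻¹) = u * y * u⁻¹ * (u * x * u⁻¹) := hxy _ ⟨y, hy, rfl⟩
      have h3 : u * (x * y) * u⁻¹ = u * (y * x) * u⁻¹ := by
        calc u * (x * y) * u⁻¹ = u * x * u⁻¹ * (u * y * u⁻¹) := by group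
          _ = u * y * u⁻¹ * (u * x * u⁻¹) := h2
          _ = u * (y * x) * u⁻¹ := by group
      exact mul_left_cancel (mul_right_cancel h3)
    rcases h1 with rfl | rfl
    · left; group
    · right; rfl
  have hne : (Finset.univ : Finset (↥W ⧸ W0.subgroupOf W)).Nonempty := ⟨QuotientGroup.mk 1, Finset.mem_univ _⟩
  have hP := prod_bound F hFc hFcomm hFZ Finset.univ hne
  have hcardm : (Finset.univ : Finset (↥W ⧸ W0.subgroupOf W)).card = m := by
    rw [Finset.card_univ, hm, Subgroup.index, Nat.card_eq_fintype_card]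
  rw [hcardm] at hP
  have hPle : (⨆ i ∈ (Finset.univ : Finset (↥W ⧸ W0.subgroupOf W)), F i) ≤ (R ⊔ W).map π := by
    refine iSup₂_le fun q _ => ?_
    rintro _ ⟨y, hy, rfl⟩
    obtain ⟨y', rfl⟩ := hsurj y
    set u : T := ((q.out : ↥W) : T) with hu
    have huW : u ∈ W := q.out.2
    refine ⟨u * y' * u⁻¹, ?_, ?_⟩
    · have e : u * y' * u⁻¹ = u * (y' * u⁻¹ * y'⁻¹) * y' := by group
      rw [e]
      exact mul_mem (mem_sup_right (mul_mem huW (hWn.conj_mem _ (inv_mem huW) y'))) (mem_sup_left hy)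
    · rw [map_mul, map_mul, map_inv]
      rfl
  have hP2 := hP.trans (card_le_of_le hPle)
  -- the order of `R W`
  set σ := W.relIndex R with hσ
  have hQWc : Nat.card ↥(R ⊔ W) = 2 ^ 11 * σ := by
    have h1 : Nat.card W * W.relIndex (R ⊔ W) = Nat.card ↥(R ⊔ W) := by
      have h5 := Subgroup.relIndex_mul_relIndex ⊥ W (R ⊔ W) bot_le le_sup_right
      rwa [Subgroup.relIndex_bot_left, Subgroup.relIndex_bot_left] at h5
    rw [Subgroup.relIndex_sup_right, h.orders.2.2.2] at h1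
    exact h1.symm
  have hσ1 : σ ≠ 1 := by
    rw [hσ, Ne, Subgroup.relIndex_eq_one]
    exact hQW
  have hDc : Nat.card ((R ⊓ W).map π) * σ = 2 ^ (a + 3) := by
    have e : Nat.card (W.subgroupOf R) = Nat.card ↥(R ⊓ W) := by
      have := Nat.card_congr (Subgroup.equivMapOfInjective (W.subgroupOf R) R.subtype R.subtype_injective).toEquiv
      rwa [Subgroup.subgroupOf_map_subtype, inf_comm] at this
    have h1 := (W.subgroupOf R).card_mul_index
    rw [e, hcardR, hcardmap (R ⊓ W) (le_inf hZ1R hZ1W), mul_assoc] at h1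
    exact Nat.eq_of_mul_eq_mul_left (by norm_num) h1
  have hσ0 : σ ≠ 0 := by
    intro h0
    rw [h0, mul_zero] at hDc
    have : 0 < 2 ^ (a + 3) := by positivity
    omega
  have hσ8 : σ ≤ 8 := by
    have h1 : σ ∣ W.index := Subgroup.relIndex_dvd_index_of_normal W R
    rw [h.orders.1] at h1
    exact Nat.le_of_dvd (by norm_num) h1
  have hmapc : Nat.card ((R ⊔ W).map π) = 2 ^ 10 * σ := by
    have h1 := hcardmap (R ⊔ W) (hZ1R.trans le_sup_left)
    rw [hQWc] at h1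
    omega
  rw [hmapc] at hP2
  have hk4 : 4 ≤ 2 ^ (a + 2) := by
    calc 4 = 2 ^ 2 := by norm_num
      _ ≤ 2 ^ (a + 2) := Nat.pow_le_pow_right (by norm_num) (by omega)
  set k := 2 ^ (a + 2) with hk
  have hk3 : 2 ^ (a + 3) = 2 * k := by rw [hk]; ring
  rw [hk3] at hDc
  rcases hcase with h1 | ⟨h1, h2⟩
  · -- `m ≥ 8`
    have hm8 : 8 ≤ m := by
      by_contra hcon
      have h3 : Nat.card W0 ≤ 2 ^ 7 * 2 := hW0card.trans (Nat.mul_le_mul_left _ h1)
      have h4 : Nat.card W0 * m ≤ (2 ^ 7 * 2) * 7 := Nat.mul_le_mul h3 (by omega)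
      rw [hm1] at h4
      norm_num at h4
    have h3 : 4 ^ 8 ≤ k ^ m := (Nat.pow_le_pow_left hk4 8).trans (Nat.pow_le_pow_right (by omega) hm8)
    have h4 : 2 * 4 ^ 8 ≤ 2 ^ 10 * σ := (Nat.mul_le_mul_left 2 h3).trans hP2
    norm_num at h4
    omega
  · have hm4 : 4 ≤ m := by
      by_contra hcon
      have h3 : Nat.card W0 ≤ 2 ^ 7 * 4 := hW0card.trans (Nat.mul_le_mul_left _ h1)
      have h4 : Nat.card W0 * m ≤ (2 ^ 7 * 4) * 3 := Nat.mul_le_mul h3 (by omega)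
      rw [hm1] at h4
      norm_num at h4
    have h5 : 4 * σ ≤ k := by
      have : 8 * σ ≤ 2 * k := by rw [← hDc]; exact Nat.mul_le_mul_right _ h2
      omega
    have h3 : (4 * σ) ^ 4 ≤ k ^ m := (Nat.pow_le_pow_left h5 4).trans (Nat.pow_le_pow_right (by omega) hm4)
    have h4 : 2 * (4 * σ) ^ 4 ≤ 2 ^ 10 * σ := (Nat.mul_le_mul_left 2 h3).trans hP2
    have h6 : σ = 2 ∨ σ = 3 ∨ σ = 4 ∨ σ = 5 ∨ σ = 6 ∨ σ = 7 ∨ σ = 8 := by omega
    rcases h6 with h6 | h6 | h6 | h6 | h6 | h6 | h6 <;> rw [h6] at h4 <;> norm_num at h4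

/-- **B1 modulo `Z_1`.** -/
theorem no_quat_quot (h : Hyp T W) {Q : Subgroup (T ⧸ Zu T 1)} (hQ : IsGQ Q)
    (hconj : ∀ t : T ⧸ Zu T 1, (∀ x ∈ Q, t * x * t⁻¹ ∈ Q) ∨
      ∀ x ∈ Q, ∀ y ∈ Q, x * (t * y * t⁻¹) = (t * y * t⁻¹) * x) : False := by
  obtain ⟨a, ha⟩ := card_gq hQ
  obtain ⟨c, v, z, n, hG⟩ := Cfsg.Agent.Cit.exists_gq hQ
  by_cases hQW : Q.comap (QuotientGroup.mk' (Zu T 1)) ≤ W
  · refine quotA h hG ?_ hQW hconj
    rw [ha]
    calc 8 = 2 ^ 3 := by norm_num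
      _ ≤ 2 ^ (a + 3) := Nat.pow_le_pow_right (by norm_num) (by omega)
  · exact quotB h hG ha hQW hconj

end Cfsg.Agent.H303.RsQuat
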