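import Cfsg.Agent.H303.RsDblB
import Cfsg.Agent.H303.RsClass
import Cfsg.Agent.H303.RsQuotB

set_option autoImplicit false
set_option linter.style.haveILetI false
set_option linter.unnecessarySimpa false

/-! No known simple group has Sylow 2-subgroups of Rudvalis type modulo `Z_1`. -/

namespace Cfsg.Agent.H303.RsDbl

open Cfsg Cfsg.Agent.NotCT Cfsg.Agent.H303.RuMain Subgroup
open Cfsg.Agent.Cit (cj mem_cj conj_mem_cj cls self_mem_cls Syl OmS IsGQ syl_inf mem_OmS_of_le)
open Cfsg.Agent.H327.A16 (LongAt Lg)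
open scoped commutatorElement

local notation "Zu" => Subgroup.upperCentralSeries

variable {T : Type*} [Group T] {W : Subgroup T} (h : Hyp T W) {L : Type*} [Group L] [Finite L]
  (P : Sylow 2 L) (e : T ⧸ Zu T 1 ≃* ↥(P : Subgroup L))
include h e

omit [Finite L] in
theorem dvd_card : 2 ^ 13 ∣ Nat.card L := by
  rw [← card_P h P e]
  exact Subgroup.card_subgroup_dvd_card _

theorem not_dvd_card : ¬ 2 ^ 14 ∣ Nat.card L := by
  intro h1
  have hp : Fact (Nat.Prime 2) := ⟨Nat.prime_two⟩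
  have h2 := (P.pow_dvd_card_of_pow_dvd_card h1)
  have h3 : Nat.card P = 2 ^ 13 := card_P h P e
  rw [h3] at h2
  exact absurd (Nat.le_of_dvd (by norm_num) h2) (by norm_num)

theorem no_card {n : ℕ} (hn : Nat.card L = n) (hc : n % 2 ^ 13 ≠ 0 ∨ n % 2 ^ 14 = 0) : False := by
  rcases hc with hc | hc
  · exact hc (Nat.mod_eq_zero_of_dvd (hn ▸ dvd_card h P e))
  · exact not_dvd_card h P e (hn ▸ Nat.dvd_of_mod_eq_zero hc)

omit [Finite L] in
theorem not_comm_sylow : ¬ IsMulCommutative (P : Subgroup L) := by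
  intro hc
  obtain ⟨a, g, hag⟩ := h.not_comm
  apply hag
  refine h.Z3_le_W (Hyp.le32 (Hyp.le21 ?_))
  rw [← QuotientGroup.eq_one_iff]
  change QuotientGroup.mk' (Zu T 1) ⁅a, g⁆ = 1
  rw [map_commutatorElement, commutatorElement_eq_one_iff_mul_comm]
  apply e.injective
  rw [map_mul, map_mul]
  exact hc.is_comm.comm _ _

omit [Finite L] in
theorem not_comm : ¬ IsMulCommutative L := by
  intro hc
  exact not_comm_sylow h P e ⟨⟨fun a b => Subtype.ext (hc.is_comm.comm (a : L) b)⟩⟩

/-- alternating groups -/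
theorem no_alt : ¬ IsAlternating L := by
  intro hX
  obtain ⟨n, hn, he⟩ := hX
  have h1 := two_card_alt (by omega) he
  have h2 : 2 ^ 14 ∣ n.factorial := by
    rw [← h1, pow_succ', ]
    exact Nat.mul_dvd_mul_left 2 (dvd_card h P e)
  have h3 : ¬ 2 ^ 15 ∣ n.factorial := by
    rw [← h1, pow_succ']
    intro h4
    exact not_dvd_card h P e (Nat.dvd_of_mul_dvd_mul_left (by norm_num) h4)
  rcases Nat.lt_or_ge n 16 with h4 | h4
  · have h5 : 2 ^ 14 ∣ (15 : ℕ).factorial := h2.trans (Nat.factorial_dvd_factorial (by omega))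
    revert h5
    decide +kernel
  · apply h3
    have h5 : 2 ^ 15 ∣ (16 : ℕ).factorial := by decide +kernel
    exact h5.trans (Nat.factorial_dvd_factorial (by omega))

/-- long `SL₂(q)` -/
theorem not_long (q : ℕ) : ¬ OddHalf.LongSL.HasLong q L := by
  rintro ⟨j, J, hJ⟩
  have hp : Fact (Nat.Prime 2) := ⟨Nat.prime_two⟩
  have hJ' : LongAt q L j J := hJ
  obtain ⟨M, hL⟩ := hJ'.exists_lg
  obtain ⟨Q, hQ⟩ := Cit.Hyp.exists_syl M
  obtain ⟨P1, hP⟩ := hQ.2.1.exists_le_sylow
  obtain ⟨g, hg⟩ := MulAction.exists_smul_eq L P1 P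
  have hK : cj g M ∈ OmS (cls M) (P : Subgroup L) := by
    refine mem_OmS_of_le (hL.hyp.conj M (self_mem_cls M) g) (hQ.cj g) ?_
    rw [← hg, Sylow.coe_subgroup_smul]
    rintro _ ⟨x, hx, rfl⟩
    exact ⟨x, hP hx, rfl⟩
  obtain ⟨Q1, ⟨n, ⟨e1⟩⟩, h2⟩ := RsLong.exists_quat hL.hyp P.isPGroup' hK
  refine RsQuat.no_quat_quot h (Q := Q1.comap e.toMonoidHom) ⟨n, ⟨MulEquiv.trans ?_ e1⟩⟩ ?_
  · exact (e.subgroupMap (Q1.comap e.toMonoidHom)).trans
      (MulEquiv.subgroupCongr (Subgroup.map_comap_eq_self_of_surjective e.surjective _))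
  · intro t
    rcases h2 (e t) with h3 | h3
    · left
      intro x hx
      change e (t * x * t⁻¹) ∈ Q1
      rw [map_mul, map_mul, map_inv]
      exact h3 _ hx
    · right
      intro x hx y hy
      apply e.injective
      have e1 : e (t * y * t⁻¹) = e t * e y * (e t)⁻¹ := by rw [map_mul, map_mul, map_inv]
      rw [map_mul e x, map_mul e (t * y * t⁻¹), e1]
      exact h3 _ hx _ hy

/-- odd characteristic -/
theorem no_odd {p : ℕ} (hp : p.Prime) (hp2 : p ≠ 2) : ¬ IsLieTypeChar p L := by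
  have hlong := not_long h P e
  have hodd : ∀ (F : Type) [Field F] [Fintype F] [CharP F p], Odd (Fintype.card F) := by
    intro F _ _ _
    have h2 : ringChar F ≠ 2 := by
      rw [ringChar.eq F p]
      exact hp2
    have := FiniteField.odd_card_of_char_ne_two h2
    rwa [Nat.odd_iff]
  have hpo : Odd p := hp.odd_of_ne_two hp2
  rintro (h1 | h1 | h1 | h1 | h1 | h1 | h1 | h1 | ⟨rfl, -⟩ | ⟨rfl, -⟩ | ⟨-, h1⟩)
  · obtain ⟨F, _, _, _, n, h2, h3, ⟨e'⟩⟩ := h1
    rcases Nat.lt_or_ge 2 n with h4 | h4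
    · exact hlong _ ((OddHalf.LongSL.Mat.hasLong_psl (hodd F) h4).of_equiv e'.symm)
    · have h5 : n = 2 := by omega
      subst h5
      exact not_psl h P e (F := F) (by rw [Nat.card_eq_fintype_card]; exact hodd F) e'
  · obtain ⟨F, _, _, _, m, h2, -, ⟨e'⟩⟩ := h1
    exact hlong _ ((OddHalf.LongSL.Mat.hasLong_psp (hodd F) h2).of_equiv e'.symm)
  · obtain ⟨F, _, _, _, n, q, hF, hn, -, ⟨e'⟩⟩ := h1
    have ho := hodd F
    have hoq : Odd q := (Nat.odd_pow_iff two_ne_zero).1 (hF ▸ ho)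
    exact hlong _ ((OddHalf.LongSL.Mat.hasLong_psu hF hoq hn).of_equiv e'.symm)
  · obtain ⟨F, _, _, _, h2⟩ := OddHalf.LongSL.Orth.hasLong_of_isPOmegaOddChar hpo h1
    exact hlong _ h2
  · obtain ⟨F, _, _, _, h2⟩ := OddHalf.LongSL.Orth.hasLong_of_isPOmegaPlusChar hpo h1
    exact hlong _ h2
  · obtain ⟨F, _, _, _, h2⟩ := OddHalf.LongSL.Orth.hasLong_of_isPOmegaMinusChar hpo h1
    exact hlong _ h2
  · obtain ⟨F, _, _, _, h2⟩ := OddHalf.LongSL.Chev.hasLong_of_exceptional hp2 h1
    exact hlong _ h2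
  · obtain ⟨F, _, _, _, h2⟩ := OddHalf.LongSL.Tw.hasLong_of_twisted hp2 h1
    exact hlong _ h2
  · exact hp2 rfl
  · exact hp2 rfl
  · obtain ⟨K, _, _, m, hm, hK, ⟨e'⟩⟩ := h1
    have h2 := dvd_card h P e
    rw [Nat.card_congr e'.toEquiv, Cfsg.Agent.S1069.result hK] at h2
    have h3 : 16 ∣ (3 ^ (2 * m + 1)) ^ 3 * (3 ^ (2 * m + 1) - 1) * ((3 ^ (2 * m + 1)) ^ 3 + 1) :=
      (show (16 : ℕ) ∣ 2 ^ 13 by norm_num).trans h2
    have h4 : 3 ^ (2 * m + 1) % 16 = 3 ∨ 3 ^ (2 * m + 1) % 16 = 11 := by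
      clear h3 h2 hK hm e'
      induction m with
      | zero => left; norm_num
      | succ m ih =>
        have h5 : 3 ^ (2 * (m + 1) + 1) = 9 * 3 ^ (2 * m + 1) := by ring
        rw [h5]
        omega
    obtain ⟨q, hq⟩ : ∃ q, 3 ^ (2 * m + 1) = q + 1 := ⟨3 ^ (2 * m + 1) - 1, (Nat.sub_add_cancel (Nat.one_le_pow _ _ (by norm_num))).symm⟩
    rw [hq] at h3 h4
    rw [Nat.add_sub_cancel] at h3
    have h5 := Nat.mod_eq_zero_of_dvd h3
    rcases h4 with h4 | h4
    · have h6 : q % 16 = 2 := by omega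
      rw [Nat.mul_mod, Nat.mul_mod ((q + 1) ^ 3), Nat.add_mod ((q + 1) ^ 3), Nat.pow_mod, h4, h6] at h5
      norm_num at h5
    · have h6 : q % 16 = 10 := by omega
      rw [Nat.mul_mod, Nat.mul_mod ((q + 1) ^ 3), Nat.add_mod ((q + 1) ^ 3), Nat.pow_mod, h4, h6] at h5
      norm_num at h5

/-- characteristic two -/
theorem no_even : ¬ IsLieTypeChar 2 L := by
  intro h1
  obtain ⟨t, k, hv, ht⟩ := exists_typ Nat.prime_two h1
  have h2 := card_eq Nat.prime_two hv ht
  have h3 := exp_eq Nat.prime_two hv h2 (dvd_card h P e) (not_dvd_card h P e)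
  have tri : ∀ n, 3 ≤ n → k * (n * (n - 1) / 2) ≠ 13 := by
    intro n hn h4
    have h5 : n * (n - 1) / 2 ∣ 13 := Dvd.intro_left _ h4
    have h6 : n ≤ 5 := by
      by_contra hc
      have h7 : 6 * 5 ≤ n * (n - 1) := Nat.mul_le_mul (by omega) (by omega)
      have h8 := Nat.le_of_dvd (by norm_num) h5
      omega
    interval_cases n <;> revert h5 <;> decide
  have sq : ∀ n, 2 ≤ n → k * (n ^ 2) ≠ 13 := by
    intro n hn h4
    have h5 : n ^ 2 ∣ 13 := Dvd.intro_left _ h4
    have h6 : n ≤ 3 := by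
      by_contra hc
      have h7 : 4 ^ 2 ≤ n ^ 2 := Nat.pow_le_pow_left (by omega) 2
      have h8 := Nat.le_of_dvd (by norm_num) h5
      omega
    interval_cases n <;> revert h5 <;> decide
  have rect : ∀ n, 4 ≤ n → k * (n * (n - 1)) ≠ 13 := by
    intro n hn h4
    have h5 : n * (n - 1) ∣ 13 := Dvd.intro_left _ h4
    have h6 : n ≤ 4 := by
      by_contra hc
      have h7 : 5 * 4 ≤ n * (n - 1) := Nat.mul_le_mul (by omega) (by omega)
      have h8 := Nat.le_of_dvd (by norm_num) h5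
      omega
    interval_cases n; revert h5; decide
  cases t with
  | L n =>
    obtain ⟨hk, hn, -⟩ := hv
    rcases Nat.lt_or_ge 2 n with h4 | h4
    · exact tri n h4 h3
    · have h5 : n = 2 := by omega
      subst h5
      obtain ⟨F, _, _, hF, ⟨e'⟩⟩ := ht
      exact BenderType.Classify.not_psl P (not_comm_sylow h P e) hF e'
  | S m => exact sq m hv.2.1 h3
  | U n => exact tri n hv.2.1 h3
  | OO m => exact hv.2.2 rfl
  | OP m => exact rect m hv.2 h3
  | OM m => exact rect m hv.2 h3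
  | G2 => simp only [Typ.N] at h3; omega
  | F4 => simp only [Typ.N] at h3; omega
  | E6 => simp only [Typ.N] at h3; omega
  | E7 => simp only [Typ.N] at h3; omega
  | E8 => simp only [Typ.N] at h3; omega
  | TE6 => simp only [Typ.N] at h3; omega
  | TD4 => simp only [Typ.N] at h3; omega
  | SZ => simp only [Typ.N] at h3; omega
  | TF4 => simp only [Typ.N] at h3; omega
  | RG => obtain ⟨h4, -⟩ := hv; omega

theorem no_sporadic (hX : IsSporadicGroup L) : False := by
  rcases hX with h1 | h1 | h1 | h1 | h1 | h1 | h1 | h1 | h1 | h1 | h1 | h1 | h1 | h1 | h1 | h1 | h1 | h1 | h1 |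
    h1 | h1 | h1 | h1 | h1 | h1 | h1
  · exact no_card h P e (Orders.m11 h1) (by norm_num)
  · exact no_card h P e (Orders.m12 h1) (by norm_num)
  · exact no_card h P e (Orders.m22 h1) (by norm_num)
  · exact no_card h P e (Orders.m23 h1) (by norm_num)
  · exact no_card h P e (Orders.m24 h1) (by norm_num)
  · exact no_card h P e (Orders.j1 h1) (by norm_num)
  · exact no_card h P e (Orders.j2 h1) (by norm_num)
  · exact no_card h P e (Orders.j3 h1) (by norm_num)
  · exact no_card h P e (Orders.j4 h1) (by norm_num)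
  · exact no_card h P e (Orders.co1 h1) (by norm_num)
  · exact no_card h P e (Orders.co2 h1) (by norm_num)
  · exact no_card h P e (Orders.co3 h1) (by norm_num)
  · exact no_card h P e (Orders.mcl h1) (by norm_num)
  · exact no_card h P e (Orders.hs h1) (by norm_num)
  · exact not_suz h h1 P e
  · exact no_card h P e (Orders.he h1) (by norm_num)
  · exact no_card h P e (Orders.ru h1) (by norm_num)
  · exact no_card h P e (Orders.on h1) (by norm_num)
  · exact no_card h P e (Orders.ly h1) (by norm_num)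
  · exact no_card h P e (Orders.fi22 h1) (by norm_num)
  · exact no_card h P e (Orders.fi23 h1) (by norm_num)
  · exact no_card h P e (Orders.fi24 h1) (by norm_num)
  · exact no_card h P e (Orders.hn h1) (by norm_num)
  · exact no_card h P e (Orders.th h1) (by norm_num)
  · exact no_card h P e (Orders.b h1) (by norm_num)
  · exact no_card h P e (Orders.m h1) (by norm_num)

/-- **No known simple group has Sylow 2-subgroups of Rudvalis type modulo `Z_1`.** -/
theorem no_known (hk : IsKnownSimple' L) : False := by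
  rcases OddHalf.Known.classify (not_comm h P e) hk with h1 | ⟨p, hp, hp2, h1⟩ | (h1 | h1) | h1
  · exact no_alt h P e h1
  · exact no_odd h P e hp hp2 h1
  · exact no_even h P e h1
  · exact no_card h P e (Orders.tits h1) (by norm_num)
  · exact no_sporadic h P e h1

end Cfsg.Agent.H303.RsDbl

namespace Cfsg.Agent.H303.RsDbl

open Cfsg Cfsg.Agent.H303.RuMain Subgroup

local notation "Zu" => Subgroup.upperCentralSeries

/-- **B1b**: no group `K` with Sylow 2-subgroup `S` of Rudvalis type has a normal subgroup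
`Z = Z_1(S)` such that `K/Z` is a known simple group. -/
theorem no_double' {K : Type*} [Group K] [Finite K] (S : Sylow 2 K) {W : Subgroup ↥(S : Subgroup K)}
    (h : Hyp ↥(S : Subgroup K) W) (Z : Subgroup K) [Z.Normal]
    (hZ : Z = (Zu ↥(S : Subgroup K) 1).map (S : Subgroup K).subtype) (hk : IsKnownSimple' (K ⧸ Z)) : False := by
  have : Fact (Nat.Prime 2) := ⟨Nat.prime_two⟩
  let P : Sylow 2 (K ⧸ Z) := S.mapSurjective (f := QuotientGroup.mk' Z) (QuotientGroup.mk'_surjective Z)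
  let φ : ↥(S : Subgroup K) →* ↥(P : Subgroup (K ⧸ Z)) := (QuotientGroup.mk' Z).subgroupMap (S : Subgroup K)
  have hφs : Function.Surjective φ := (QuotientGroup.mk' Z).subgroupMap_surjective (S : Subgroup K)
  have hφk : φ.ker = Zu ↥(S : Subgroup K) 1 := by
    ext x
    rw [MonoidHom.mem_ker]
    have h1 : φ x = 1 ↔ (x : K) ∈ Z := by
      rw [← QuotientGroup.eq_one_iff]
      exact ⟨fun h1 => congrArg Subtype.val h1, fun h1 => Subtype.ext h1⟩
    rw [h1, hZ, Subgroup.mem_map]
    constructor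
    · rintro ⟨y, hy, hyx⟩
      rwa [← Subtype.ext hyx]
    · intro hx
      exact ⟨x, hx, rfl⟩
  exact no_known h P ((QuotientGroup.quotientMulEquivOfEq hφk.symm).trans
    (QuotientGroup.quotientKerEquivOfSurjective φ hφs)) hk

theorem no_double {K : Type*} [Group K] [Finite K] (S : Sylow 2 K) {W : Subgroup ↥(S : Subgroup K)}
    (h : Hyp ↥(S : Subgroup K) W)
    (hZ : center K = (Zu ↥(S : Subgroup K) 1).map (S : Subgroup K).subtype)
    (hk : IsKnownSimple' (K ⧸ center K)) : False :=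
  no_double' S h (center K) hZ hk

end Cfsg.Agent.H303.RsDbl
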