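import Mathlib
import Cfsg.Prelude.Def_Transfer
import Cfsg.Agent.H303.RuDih

set_option autoImplicit false
set_option linter.style.haveILetI false
set_option linter.unnecessarySimpa false

/-! 2-groups of "Rudvalis type": automorphisms of odd order are trivial, and `W` is the only
subgroup of `T` isomorphic to `W`. -/

namespace Cfsg.Agent.H303.RuMain

open Subgroup
open scoped commutatorElement

local notation "Zu" => Subgroup.upperCentralSeries

variable {T : Type*} [Group T]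

/-- If `α x = x c`, `α c = c`, `α ^ m = 1` with `m` odd and `c` a 2-element, then `c = 1`. -/
theorem eq_one_of_aut {G : Type*} [Group G] (α : MulAut G) {m : ℕ} (hm : Odd m)
    (hα : α ^ m = 1) {x c : G} (hx : α x = x * c) (hc : α c = c) {k : ℕ}
    (hk : c ^ (2 ^ k) = 1) : c = 1 := by
  have hn : ∀ n : ℕ, (α ^ n) x = x * c ^ n := by
    intro n
    induction n with
    | zero => simp
    | succ n ih =>
      rw [pow_succ', MulAut.mul_apply, ih, map_mul, map_pow, hx, hc, pow_succ', mul_assoc]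
  have h1 := hn m
  rw [hα, MulAut.one_apply] at h1
  have h2 : c ^ m = 1 := by
    have : x * c ^ m = x * 1 := by rw [← h1, mul_one]
    exact mul_left_cancel this
  have h3 : orderOf c ∣ m := orderOf_dvd_of_pow_eq_one h2
  have h4 : orderOf c ∣ 2 ^ k := orderOf_dvd_of_pow_eq_one hk
  have h5 : Nat.Coprime m (2 ^ k) := by
    apply Nat.Coprime.pow_right
    exact Nat.coprime_two_right.2 hm
  have h6 : orderOf c ∣ 1 := by
    rw [← h5.gcd_eq_one]
    exact Nat.dvd_gcd h3 h4
  exact orderOf_eq_one_iff.1 (Nat.dvd_one.1 h6)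

namespace Hyp

variable {W : Subgroup T}

theorem aut_mem (_h : Hyp T W) (α : MulAut T) {j : ℕ} {x : T} (hx : x ∈ Zu T j) :
    α x ∈ Zu T j := by
  have h1 := Subgroup.comap_upperCentralSeries α j
  rw [← h1] at hx
  exact hx

theorem two_elt (h : Hyp T W) (x : T) : ∃ k : ℕ, x ^ (2 ^ k) = 1 := h.two x

/-- An automorphism of odd order centralises `Z_j` for `j ≤ 4`. -/
theorem aut_Z (h : Hyp T W) (α : MulAut T) {m : ℕ} (hm : Odd m) (hα : α ^ m = 1) :
    ∀ j ≤ 4, ∀ x ∈ Zu T j, α x = x := by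
  have := h.fin
  intro j
  induction j with
  | zero =>
    intro _ x hx
    rw [Subgroup.upperCentralSeries_zero, Subgroup.mem_bot] at hx
    rw [hx, map_one]
  | succ j ih =>
    intro hj x hx
    have hle : Zu T j ≤ Zu T (j + 1) := RuBase.upper_le_succ j
    have hcard : Nat.card ↥(Zu T (j + 1)) = 2 * Nat.card ↥(Zu T j) := by
      rw [h.cardZ _ hj, h.cardZ _ (by omega), pow_succ, mul_comm]
    have hc : x⁻¹ * α x ∈ Zu T j := by
      by_cases hx' : x ∈ Zu T j
      · exact mul_mem (inv_mem hx') (h.aut_mem α hx')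
      · rw [mul_mem_of_card hle hcard (inv_mem hx) (h.aut_mem α hx), inv_mem_iff]
        refine iff_of_false hx' ?_
        intro hax
        apply hx'
        have h1 := h.aut_mem α⁻¹ hax
        simpa using h1
    obtain ⟨k, hk⟩ := h.two_elt (x⁻¹ * α x)
    have h1 := eq_one_of_aut α hm hα (x := x) (c := x⁻¹ * α x) (by group)
      (ih (by omega) _ hc) hk
    exact (inv_mul_eq_one.1 h1).symm

/-- An automorphism of odd order is trivial modulo `W`. -/
theorem aut_mod_W (h : Hyp T W) (α : MulAut T) {m : ℕ} (hm : Odd m) (hα : α ^ m = 1) (t : T) :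
    t⁻¹ * α t ∈ W := by
  rw [h.mem_W]
  intro z hz
  have hn : (Zu T 3).Normal := inferInstance
  have h1 : t * z * t⁻¹ ∈ Zu T 3 := hn.conj_mem z hz t
  have h2 := h.aut_Z α hm hα 3 (by norm_num) _ h1
  have h3 := h.aut_Z α hm hα 3 (by norm_num) _ hz
  rw [map_mul, map_mul, map_inv, h3] at h2
  -- `α t z (α t)⁻¹ = t z t⁻¹`
  have h4 : α t * z = t * z * t⁻¹ * α t := by
    rw [← h2]; group
  calc z * (t⁻¹ * α t) = t⁻¹ * (t * z * t⁻¹ * α t) := by group
    _ = t⁻¹ * (α t * z) := by rw [h4]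
    _ = t⁻¹ * α t * z := by group

/-- An automorphism of odd order is trivial on `W / Z_3`. -/
theorem aut_W_mod (h : Hyp T W) (α : MulAut T) {m : ℕ} (hm : Odd m) (hα : α ^ m = 1) {w : T}
    (hw : w ∈ W) : w⁻¹ * α w ∈ Zu T 3 := by
  have := h.fin
  have : Fact (Nat.Prime 2) := ⟨Nat.prime_two⟩
  have hWα : ∀ x ∈ W, α x ∈ W := by
    intro x hx
    have e : α x = x * (x⁻¹ * α x) := by group
    rw [e]
    exact mul_mem hx (h.aut_mod_W α hm hα x)
  -- `I`: the subgroup of the `w⁻¹ α w` modulo `Z_3`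
  let I : Subgroup T :=
    { carrier := {y | ∃ w ∈ W, (w⁻¹ * α w)⁻¹ * y ∈ Zu T 3}
      one_mem' := ⟨1, one_mem _, by simp⟩
      mul_mem' := by
        rintro a b ⟨x, hx, hxa⟩ ⟨y, hy, hyb⟩
        refine ⟨x * y, mul_mem hx hy, ?_⟩
        have hn : (Zu T 3).Normal := inferInstance
        rw [← QuotientGroup.eq] at hxa hyb ⊢
        have hcomm : ∀ u ∈ W, ∀ v ∈ W, (QuotientGroup.mk' (Zu T 3) u) * QuotientGroup.mk' (Zu T 3) v
            = QuotientGroup.mk' (Zu T 3) v * QuotientGroup.mk' (Zu T 3) u := by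
          intro u hu v hv
          exact (h.quot_facts le_rfl h.orders.2.1).2.1 _ (Subgroup.mem_map_of_mem _ hu) _
            (Subgroup.mem_map_of_mem _ hv)
        have e1 := hcomm _ (inv_mem hx) _ (hWα x hx)
        have e2 := hcomm (x⁻¹ * α x) (mul_mem (inv_mem hx) (hWα x hx)) y⁻¹ (inv_mem hy)
        change QuotientGroup.mk' (Zu T 3) (x⁻¹ * α x) = QuotientGroup.mk' (Zu T 3) a at hxa
        change QuotientGroup.mk' (Zu T 3) (y⁻¹ * α y) = QuotientGroup.mk' (Zu T 3) b at hyb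
        change QuotientGroup.mk' (Zu T 3) ((x * y)⁻¹ * α (x * y)) =
          QuotientGroup.mk' (Zu T 3) (a * b)
        rw [map_mul _ a b, ← hxa, ← hyb]
        have e3 : (x * y)⁻¹ * α (x * y) = y⁻¹ * (x⁻¹ * α x) * α y := by
          rw [map_mul]; group
        rw [e3, map_mul, map_mul, ← e2, map_mul _ y⁻¹ (α y)]
        group
      inv_mem' := by
        rintro a ⟨x, hx, hxa⟩
        refine ⟨x⁻¹, inv_mem hx, ?_⟩
        have hn : (Zu T 3).Normal := inferInstance
        rw [← QuotientGroup.eq] at hxa ⊢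
        have hcomm : ∀ u ∈ W, ∀ v ∈ W, (QuotientGroup.mk' (Zu T 3) u) * QuotientGroup.mk' (Zu T 3) v
            = QuotientGroup.mk' (Zu T 3) v * QuotientGroup.mk' (Zu T 3) u := by
          intro u hu v hv
          exact (h.quot_facts le_rfl h.orders.2.1).2.1 _ (Subgroup.mem_map_of_mem _ hu) _
            (Subgroup.mem_map_of_mem _ hv)
        change QuotientGroup.mk' (Zu T 3) (x⁻¹ * α x) = QuotientGroup.mk' (Zu T 3) a at hxa
        change QuotientGroup.mk' (Zu T 3) (x⁻¹⁻¹ * α x⁻¹) = QuotientGroup.mk' (Zu T 3) a⁻¹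
        rw [map_inv _ a, ← hxa]
        have e1 := hcomm x hx (α x)⁻¹ (inv_mem (hWα x hx))
        rw [inv_inv, map_inv α, map_mul, e1]
        simp only [map_mul, map_inv]
        group }
  have hI : ∀ y, y ∈ I ↔ ∃ w ∈ W, (w⁻¹ * α w)⁻¹ * y ∈ Zu T 3 := fun y => Iff.rfl
  have h3I : Zu T 3 ≤ I := by
    intro z hz
    rw [hI]
    exact ⟨1, one_mem _, by simpa using hz⟩
  have hIn : I.Normal := by
    refine ⟨fun y hy t => ?_⟩
    rw [hI] at hy ⊢
    obtain ⟨w, hw, hy⟩ := hy
    have hn : (Zu T 3).Normal := inferInstance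
    refine ⟨t * w * t⁻¹, h.normalW.conj_mem w hw t, ?_⟩
    -- `(t w t⁻¹)⁻¹ α (t w t⁻¹) = t w⁻¹ t⁻¹ α(t) α(w) α(t)⁻¹` and `α(t) = t v` with `v ∈ W`
    set v := t⁻¹ * α t with hv
    have hvW : v ∈ W := h.aut_mod_W α hm hα t
    have hαt : α t = t * v := by rw [hv]; group
    have e1 : (t * w * t⁻¹)⁻¹ * α (t * w * t⁻¹) = t * (w⁻¹ * (v * α w * v⁻¹)) * t⁻¹ := by
      rw [map_mul, map_mul, map_inv, hαt]; group
    have hv3 : ⁅v, α w⁆ ∈ Zu T 3 := h.comm_W_mem hvW (hWα w hw)
    rw [← QuotientGroup.eq] at hy ⊢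
    rw [e1]
    have e2 : w⁻¹ * (v * α w * v⁻¹) = (w⁻¹ * ⁅v, α w⁆ * w) * (w⁻¹ * α w) := by
      rw [commutatorElement_def]; group
    have h5 : w⁻¹ * ⁅v, α w⁆ * w ∈ Zu T 3 := by simpa using hn.conj_mem _ hv3 w⁻¹
    have h6 : (QuotientGroup.mk (w⁻¹ * ⁅v, α w⁆ * w) : T ⧸ Zu T 3) = 1 :=
      (QuotientGroup.eq_one_iff _).2 h5
    rw [e2, QuotientGroup.mk_mul, QuotientGroup.mk_mul, QuotientGroup.mk_mul, h6, one_mul, hy]
    rfl
  by_contra hw3
  have hIle : ¬ I ≤ Zu T 3 := by
    intro hle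
    exact hw3 (hle ((hI _).2 ⟨w, hw, by simp⟩))
  have h1 := RuBase.two_mul_card_le h.two I 3 hIle
  rw [inf_eq_right.2 h3I, h.cardZ 3 (by norm_num)] at h1
  have h2 : I ⊓ Zu T 4 = Zu T 4 :=
    Subgroup.eq_of_le_of_card_ge inf_le_right (by rw [h.cardZ 4 le_rfl]; omega)
  have h4 : Zu T 4 ≤ I := inf_eq_right.1 h2
  -- `c ∈ Z_4 \ Z_3`
  have hex : ∃ c ∈ Zu T 4, c ∉ Zu T 3 := by
    by_contra hcon
    push Not at hcon
    have h5 := Subgroup.card_le_of_le (show Zu T 4 ≤ Zu T 3 from fun y hy => hcon y hy)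
    rw [h.cardZ 4 le_rfl, h.cardZ 3 (by norm_num)] at h5
    norm_num at h5
  obtain ⟨c, hc4, hc3⟩ := hex
  obtain ⟨u, hu, huc⟩ := (hI c).1 (h4 hc4)
  have h5 : u⁻¹ * α u ∈ Zu T 4 := by
    have e : u⁻¹ * α u = c * ((u⁻¹ * α u)⁻¹ * c)⁻¹ := by group
    rw [e]
    exact mul_mem hc4 (inv_mem (le43 huc))
  obtain ⟨k, hk⟩ := h.two_elt (u⁻¹ * α u)
  have h6 := eq_one_of_aut α hm hα (x := u) (c := u⁻¹ * α u) (by group)
    (h.aut_Z α hm hα 4 le_rfl _ h5) hk
  rw [h6] at huc
  apply hc3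
  simpa using huc

/-- Automorphisms of odd order are trivial. -/
theorem aut_trivial (h : Hyp T W) (α : MulAut T) {m : ℕ} (hm : Odd m) (hα : α ^ m = 1) (t : T) :
    α t = t := by
  have hW : ∀ w ∈ W, α w = w := by
    intro w hw
    obtain ⟨k, hk⟩ := h.two_elt (w⁻¹ * α w)
    have h1 := eq_one_of_aut α hm hα (x := w) (c := w⁻¹ * α w) (by group)
      (h.aut_Z α hm hα 3 (by norm_num) _ (h.aut_W_mod α hm hα hw)) hk
    exact (inv_mul_eq_one.1 h1).symm
  obtain ⟨k, hk⟩ := h.two_elt (t⁻¹ * α t)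
  have h1 := eq_one_of_aut α hm hα (x := t) (c := t⁻¹ * α t) (by group)
      (hW _ (h.aut_mod_W α hm hα t)) hk
  exact (inv_mul_eq_one.1 h1).symm

end Hyp

/-- General form of the consequence of hypothesis (d). -/
theorem frattini_le_gen {Ω : Type*} [Group Ω] [Finite Ω] (hΩ : IsPGroup 2 Ω)
    (hd : ∀ U : Subgroup Ω, U.index ≤ 16 → frattini Ω ≤ U)
    (Y N : Subgroup Ω) [hN : N.Normal] (hY : Y.index ≤ 8)
    (hsq : ∀ y ∈ Y, y ^ 2 ∈ N) : frattini Ω ≤ N := by
  have : Fact (Nat.Prime 2) := ⟨Nat.prime_two⟩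
  have hYp : IsPGroup 2 ↥Y := hΩ.to_subgroup Y
  have h1 : ∀ M : Subgroup ↥Y, IsCoatom M → frattini Ω ≤ M.map Y.subtype := by
    intro M hM
    apply hd
    rw [Subgroup.index_map_subtype, Lib.FrattiniPGroup.index_of_coatom hYp hM]
    omega
  have h2 : frattini Ω ≤ Y := hd Y (by omega)
  have h3 : frattini ↥Y ≤ N.subgroupOf Y := by
    apply Lib.FrattiniBasic.frattini_le_of_elementary (p := 2)
    · rw [_root_.commutator_def, Subgroup.commutator_le]
      intro a _ b _
      rw [Subgroup.mem_subgroupOf]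
      have key : ∀ c : ↥Y, QuotientGroup.mk' N (c : Ω) * QuotientGroup.mk' N (c : Ω) = 1 := by
        intro c
        have := hsq c c.2
        rw [pow_two] at this
        rw [← map_mul]
        exact (QuotientGroup.eq_one_iff _).2 this
      have ea := key a
      have eb := key b
      have eab := key (a * b)
      rw [Subgroup.coe_mul, map_mul] at eab
      rw [← QuotientGroup.eq_one_iff]
      show QuotientGroup.mk' N (⁅(a : Ω), (b : Ω)⁆) = 1
      rw [map_commutatorElement, commutatorElement_eq_one_iff_mul_comm]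
      set x := QuotientGroup.mk' N (a : Ω)
      set y := QuotientGroup.mk' N (b : Ω)
      calc x * y = x * (x * y * (x * y)) * y := by rw [eab]; group
        _ = (x * x) * (y * x) * (y * y) := by group
        _ = y * x := by rw [ea, eb]; group
    · intro y
      rw [Subgroup.mem_subgroupOf]
      exact hsq y y.2
  intro x hx
  have hxY : x ∈ Y := h2 hx
  have h4 : (⟨x, hxY⟩ : ↥Y) ∈ frattini ↥Y := by
    rw [frattini, Order.radical]
    simp only [Subgroup.mem_iInf, Set.mem_ofPred_eq]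
    intro M hM
    obtain ⟨m, hm, hmx⟩ := Subgroup.mem_map.1 (h1 M hM hx)
    have : m = ⟨x, hxY⟩ := Subtype.ext hmx
    rwa [← this]
  have h5 := h3 h4
  rwa [Subgroup.mem_subgroupOf] at h5

namespace Hyp

variable {W : Subgroup T}

/-- `W` is the only subgroup of `T` isomorphic to `W`. -/
theorem eq_of_equiv (h : Hyp T W) (X : Subgroup T) (φ : ↥W ≃* ↥X) : X = W := by
  have := h.fin
  have hcard : Nat.card ↥X = Nat.card ↥W := (Nat.card_congr φ.toEquiv).symm
  have hXp : IsPGroup 2 ↥X := h.two.to_subgroup X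
  have hfr : ∀ x : ↥X, x ∈ frattini ↥X → φ.symm x ∈ frattini ↥W := by
    intro x hx
    exact frattini_le_comap_frattini_of_surjective (φ := φ.symm.toMonoidHom) φ.symm.surjective hx
  have hfr' : ∀ w : ↥W, w ∈ frattini ↥W → φ w ∈ frattini ↥X := by
    intro x hx
    exact frattini_le_comap_frattini_of_surjective (φ := φ.toMonoidHom) φ.surjective hx
  have hd : ∀ U : Subgroup ↥X, U.index ≤ 16 → frattini ↥X ≤ U := by
    intro U hU x hx
    have h1 : (U.comap φ.toMonoidHom).index = U.index :=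
      Subgroup.index_comap_of_surjective _ φ.surjective
    have h2 := h.hd (U.comap φ.toMonoidHom) (by rw [h1]; exact hU) (hfr x hx)
    have h3 : φ (φ.symm x) ∈ U := h2
    rwa [MulEquiv.apply_symm_apply] at h3
  have hWn := h.normalW
  -- `Φ(X) ≤ Z_3`
  have hYi : (W.subgroupOf X).index ≤ 8 := by
    have h1 : (W.subgroupOf X).index = W.relIndex X := rfl
    rw [h1, ← h.orders.1]
    have h2 : W.relIndex X ∣ W.index := Subgroup.relIndex_dvd_index_of_normal W X
    exact Nat.le_of_dvd (by rw [h.orders.1]; norm_num) h2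
  have hle : frattini ↥X ≤ (Zu T 3).subgroupOf X :=
    frattini_le_gen hXp hd (W.subgroupOf X) _ hYi (fun y hy => by
      rw [Subgroup.mem_subgroupOf]
      exact h.sq_W_mem hy)
  have hmap : (frattini ↥X).map X.subtype = Zu T 3 := by
    apply Subgroup.eq_of_le_of_card_ge
    · rw [Subgroup.map_le_iff_le_comap]
      exact hle
    · have h1 : Nat.card ↥((frattini ↥X).map X.subtype) = Nat.card ↥(frattini ↥X) :=
        Nat.card_congr (Subgroup.equivMapOfInjective _ _ X.subtype_injective).symm.toEquiv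
      have h2 : Nat.card ↥(frattini ↥W) ≤ Nat.card ↥(frattini ↥X) :=
        Nat.card_le_card_of_injective
          (fun w : ↥(frattini ↥W) => (⟨φ w, hfr' w w.2⟩ : ↥(frattini ↥X))) (by
            intro a b hab
            exact Subtype.ext (φ.injective (congrArg Subtype.val hab)))
      rw [h1]
      rw [← h.card_P, h.orders.2.1] at h2
      exact h2
  -- `X` centralises `Φ(X) = Z_3`
  have hXW : X ≤ W := by
    intro x hx
    rw [h.mem_W]
    intro z hz
    rw [← hmap] at hz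
    obtain ⟨y, hy, rfl⟩ := hz
    have h1 := hfr y hy
    have h2 : ((φ.symm y : ↥W) : T) ∈ Zu T 3 := by
      rw [← h.orders.2.1]
      exact ⟨_, h1, rfl⟩
    have h3 : φ.symm y * φ.symm ⟨x, hx⟩ = φ.symm ⟨x, hx⟩ * φ.symm y :=
      Subtype.ext (h.comm_Z3_W h2 (φ.symm ⟨x, hx⟩).2)
    rw [← map_mul, ← map_mul] at h3
    have h4 := φ.symm.injective h3
    exact congrArg Subtype.val h4
  exact Subgroup.eq_of_le_of_card_ge hXW hcard.ge

end Hyp

end Cfsg.Agent.H303.RuMain
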