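import Cfsg.Agent.H303.RsKill
import Cfsg.Agent.H303.RuNorm
import Cfsg.Agent.Cit.Quat

set_option autoImplicit false
set_option linter.style.haveILetI false
set_option linter.unnecessarySimpa false

/-! 2-groups of Rudvalis type contain no generalised quaternion subgroup whose conjugates are equal to it
or commute with it. -/

namespace Cfsg.Agent.H303.RsQuat

open Subgroup
open scoped commutatorElement
open Cfsg.Agent.Cit (GQ IsGQ)

section general

variable {G : Type*} [Group G] {Q : Subgroup G} {c v z : G} {n : ℕ}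

theorem card_gq (h : IsGQ Q) : ∃ a : ℕ, Nat.card Q = 2 ^ (a + 3) := by
  obtain ⟨n, ⟨e⟩⟩ := h
  have : NeZero (2 ^ (n + 1)) := ⟨by positivity⟩
  refine ⟨n, ?_⟩
  rw [Nat.card_congr e.toEquiv, Nat.card_eq_fintype_card, QuaternionGroup.card]
  ring

theorem gq_center (h : GQ Q c v z n) {x : G} (hx : x ∈ Q) (hc : ∀ y ∈ Q, x * y = y * x) : x = 1 ∨ x = z := by
  by_cases h1 : x = 1
  · exact Or.inl h1
  · right
    apply h.eq_z hx ?_ h1
    rcases h.cov x hx with ⟨i, rfl⟩ | ⟨i, rfl⟩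
    · have h2 := hc v h.v_mem
      rw [h.conj_pow] at h2
      have h3 := mul_right_cancel h2
      rw [eq_inv_iff_mul_eq_one] at h3
      exact h3
    · exfalso
      have h2 := hc c h.c_mem
      apply h.not_comm
      have h3 : c ^ i * c = c * c ^ i := by rw [← pow_succ, ← pow_succ']
      rw [mul_assoc, h3, ← mul_assoc, ← mul_assoc] at h2
      exact mul_right_cancel h2

theorem sup_bound [Finite G] {Q B : Subgroup G} (h : Nat.card ↥(Q ⊓ B) ≤ 2) :
    Nat.card B * Nat.card Q ≤ 2 * Nat.card ↥(Q ⊔ B) := by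
  have h1 : B.relIndex Q ≤ B.relIndex (Q ⊔ B) :=
    Subgroup.relIndex_le_of_le_right le_sup_left (Subgroup.index_ne_zero_of_finite (H := B.subgroupOf (Q ⊔ B)))
  have h2 : Nat.card ↥(Q ⊓ B) * B.relIndex Q = Nat.card Q := by
    have e : Nat.card (B.subgroupOf Q) = Nat.card ↥(Q ⊓ B) := by
      have := Nat.card_congr (Subgroup.equivMapOfInjective (B.subgroupOf Q) Q.subtype Q.subtype_injective).toEquiv
      rwa [Subgroup.subgroupOf_map_subtype, inf_comm] at this
    rw [← e]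
    exact (B.subgroupOf Q).card_mul_index
  have h3 : Nat.card B * B.relIndex (Q ⊔ B) = Nat.card ↥(Q ⊔ B) := by
    have h5 := Subgroup.relIndex_mul_relIndex ⊥ B (Q ⊔ B) bot_le le_sup_right
    rwa [Subgroup.relIndex_bot_left, Subgroup.relIndex_bot_left] at h5
  calc Nat.card B * Nat.card Q = Nat.card B * (Nat.card ↥(Q ⊓ B) * B.relIndex Q) := by rw [h2]
    _ ≤ Nat.card B * (2 * B.relIndex (Q ⊔ B)) := Nat.mul_le_mul_left _ (Nat.mul_le_mul h h1)
    _ = 2 * Nat.card ↥(Q ⊔ B) := by rw [← h3]; ring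

theorem card_le_two_of {H : Subgroup G} {z : G} (h : ∀ x ∈ H, x = 1 ∨ x = z) : Nat.card H ≤ 2 := by
  classical
  have h1 : Function.Injective (fun x : H => (if (x : G) = 1 then (0 : Fin 2) else 1)) := by
    intro x y hxy
    apply Subtype.ext
    simp only at hxy
    rcases h x x.2 with hx | hx <;> rcases h y y.2 with hy | hy
    · rw [hx, hy]
    · by_cases hz : z = 1
      · rw [hx, hy, hz]
      · rw [if_pos hx, if_neg (by rw [hy]; exact hz)] at hxy
        exact absurd hxy (by decide)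
    · by_cases hz : z = 1
      · rw [hx, hy, hz]
      · rw [if_pos hy, if_neg (by rw [hx]; exact hz)] at hxy
        exact absurd hxy (by decide)
    · rw [hx, hy]
  have h2 := Nat.card_le_card_of_injective _ h1
  simpa using h2

/-- commuting products -/
theorem prod_bound [Finite G] {ι : Type*} [DecidableEq ι] (F : ι → Subgroup G) {k : ℕ}
    (hk : ∀ i, Nat.card (F i) = 2 * k)
    (hcomm : ∀ i j, i ≠ j → ∀ x ∈ F i, ∀ y ∈ F j, x * y = y * x)
    (hZ : ∀ i, ∃ z, ∀ x ∈ F i, (∀ y ∈ F i, x * y = y * x) → x = 1 ∨ x = z) :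
    ∀ s : Finset ι, s.Nonempty → 2 * k ^ s.card ≤ Nat.card ↥(⨆ i ∈ s, F i) := by
  intro s
  induction s using Finset.induction_on with
  | empty => intro h; exact absurd h (by simp)
  | insert j s hj ih =>
    intro _
    rw [Finset.card_insert_of_notMem hj, Finset.iSup_insert]
    rcases s.eq_empty_or_nonempty with rfl | hs
    · simp [hk]
    · obtain ⟨z, hz⟩ := hZ j
      have h1 : Nat.card ↥(F j ⊓ ⨆ i ∈ s, F i) ≤ 2 := by
        apply card_le_two_of (z := z)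
        rintro x ⟨hx1, hx2⟩
        apply hz x hx1
        intro y hy
        have h2 : (⨆ i ∈ s, F i) ≤ centralizer {y} := by
          refine iSup₂_le fun i hi => ?_
          intro u hu
          rw [mem_centralizer_singleton_iff]
          exact hcomm i j (fun h => hj (h ▸ hi)) u hu y hy
        exact mem_centralizer_singleton_iff.1 (h2 hx2)
      have h2 := sup_bound h1
      rw [hk j] at h2
      have h3 := ih hs
      have h4 : 2 * k ^ s.card * (2 * k) ≤ 2 * Nat.card ↥(F j ⊔ ⨆ i ∈ s, F i) :=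
        (Nat.mul_le_mul_right _ h3).trans h2
      rw [pow_succ]
      nlinarith

end general

open Cfsg.Agent.H303.RuMain Cfsg.Agent.H303.RuMain.Hyp

local notation "Zu" => Subgroup.upperCentralSeries

variable {T : Type*} [Group T] {W : Subgroup T}

/-- characters of `Z_3` -/
theorem exists_ch (h : Hyp T W) {K : Subgroup T} {c : T} (hc : c ∈ Zu T 3) (hcK : c ∉ K) :
    ∃ φ : T → ZMod 2, (∀ x ∈ Zu T 3, ∀ y ∈ Zu T 3, φ (x * y) = φ x + φ y) ∧
      (∀ x ∈ K, x ∈ Zu T 3 → φ x = 0) ∧ φ c ≠ 0 := by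
  classical
  letI : CommGroup ↥(Zu T 3) :=
    { (inferInstance : Group ↥(Zu T 3)) with
      mul_comm := fun a b => Subtype.ext (h.comm_Z3 a.2 b.2) }
  have hE : ∀ x : ↥(Zu T 3) ⧸ K.subgroupOf (Zu T 3), x ^ 2 = 1 := by
    intro x
    obtain ⟨y, rfl⟩ := QuotientGroup.mk'_surjective _ x
    rw [← map_pow]
    have : y ^ 2 = 1 := Subtype.ext (h.sq_Z3 _ y.2)
    rw [this, map_one]
  obtain ⟨f, hf⟩ := RuBase.exists_hom hE (c := QuotientGroup.mk' (K.subgroupOf (Zu T 3)) ⟨c, hc⟩) (by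
    intro h1
    exact hcK ((QuotientGroup.eq_one_iff (N := K.subgroupOf (Zu T 3)) (⟨c, hc⟩ : ↥(Zu T 3))).1 h1))
  let φ : T → ZMod 2 := fun x => if hx : x ∈ Zu T 3 then
    Multiplicative.toAdd (f (QuotientGroup.mk' (K.subgroupOf (Zu T 3)) ⟨x, hx⟩)) else 0
  have hφ : ∀ x (hx : x ∈ Zu T 3),
      φ x = Multiplicative.toAdd (f (QuotientGroup.mk' (K.subgroupOf (Zu T 3)) ⟨x, hx⟩)) :=
    fun x hx => dif_pos hx
  refine ⟨φ, ?_, ?_, ?_⟩
  · intro x hx y hy
    rw [hφ _ (mul_mem hx hy), hφ x hx, hφ y hy, ← toAdd_mul, ← map_mul, ← map_mul]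
    rfl
  · intro x hxK hx
    rw [hφ x hx]
    have : QuotientGroup.mk' (K.subgroupOf (Zu T 3)) ⟨x, hx⟩ = 1 := (QuotientGroup.eq_one_iff _).2 hxK
    rw [this, map_one]
    rfl
  · rw [hφ c hc]
    intro h1
    exact hf (Multiplicative.toAdd.injective h1)

/-- A large subgroup in the radical of a form on which the squares vanish. -/
theorem no_rad (h : Hyp T W) {K A : Subgroup T} {c : T} (hc : c ∈ Zu T 3) (hcK : c ∉ K) (hAW : A ≤ W)
    (hZA : Zu T 3 ≤ A) (hA : 2 ^ 7 ≤ Nat.card A) (hsq : ∀ a ∈ A, a ^ 2 ∈ K)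
    (hcomm : ∀ a ∈ A, ∀ w ∈ W, ⁅a, w⁆ ∈ K) : False := by
  have := h.fin
  obtain ⟨φ, hφ, hφK, hφc⟩ := exists_ch h hc hcK
  have hone : φ 1 = 0 := by
    have := hφ 1 (one_mem _) 1 (one_mem _)
    rw [mul_one] at this
    simpa using this
  have hWn := h.normalW
  -- commutators in `W`
  have hcm : ∀ x ∈ W, ∀ y ∈ W, ⁅x, y⁆ ∈ Zu T 3 := fun x hx y hy => h.comm_W_mem hx hy
  have hzc : ∀ r ∈ Zu T 3, ∀ w ∈ W, r * w = w * r := fun r hr w hw => h.comm_Z3_W hr hw
  have hinv : ∀ x ∈ Zu T 3, φ x⁻¹ = φ x := fun x hx => by rw [h.inv_Z3 hx]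
  have hmul : ∀ x ∈ W, ∀ y ∈ W, ∀ w ∈ W, ⁅x, y * w⁆ = ⁅x, y⁆ * ⁅x, w⁆ := by
    intro x hx y hy w hw
    have h2 := hzc _ (hcm x hx w hw) y hy
    have e : ⁅x, y * w⁆ = ⁅x, y⁆ * (y * ⁅x, w⁆ * y⁻¹) := by simp only [commutatorElement_def]; group
    rw [e, ← h2, mul_inv_cancel_right]
  have hsqm : ∀ x ∈ W, ∀ y ∈ W, (x * y) ^ 2 = x ^ 2 * y ^ 2 * ⁅x, y⁆ := by
    intro x hx y hy
    have h1 := hcm y hy x hx
    have h2 := hzc _ h1 x hx
    have h3 := hzc _ h1 _ (mul_mem (pow_mem hx 2) (pow_mem hy 2))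
    have e : (x * y) ^ 2 = x * ⁅y, x⁆ * x⁻¹ * (x ^ 2 * y ^ 2) := by
      rw [commutatorElement_def, pow_two, pow_two, pow_two]; group
    rw [e, ← h2, mul_inv_cancel_right, h3, ← commutatorElement_inv x y, h.inv_Z3 (hcm x hx y hy)]
  obtain ⟨Y, hY, hYs⟩ := RuBase.exists_singular (Ω := ↥W) (A.subgroupOf W) (hQn := by
      refine ⟨fun n hn g => ?_⟩
      have e : g * n * g⁻¹ = ⁅g, n⁆ * n := by rw [commutatorElement_def]; group
      rw [e]
      exact mul_mem (hZA (hcm g g.2 n n.2)) hn) (by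
      have h1 := (A.subgroupOf W).card_mul_index
      rw [Nat.card_congr (Subgroup.subgroupOfEquivOfLe hAW).toEquiv, h.orders.2.2.2] at h1
      by_contra hcon
      push Not at hcon
      have h2 : 2 ^ 7 * 17 ≤ Nat.card A * (A.subgroupOf W).index := Nat.mul_le_mul hA hcon
      rw [h1] at h2
      norm_num at h2) (fun x => by
        rw [Subgroup.mem_subgroupOf, ← pow_two]
        exact hZA (h.sq_W_mem x.2))
    (fun x => φ ((x : T) ^ 2)) (fun x y => φ ⁅(x : T), (y : T)⁆)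
    (fun x y w => by
      show φ ⁅(x : T), (y : T) * (w : T)⁆ = _
      rw [hmul _ x.2 _ y.2 _ w.2, hφ _ (hcm _ x.2 _ y.2) _ (hcm _ x.2 _ w.2)])
    (fun x y => by
      show φ (((x : T) * (y : T)) ^ 2) = _
      rw [hsqm _ x.2 _ y.2, hφ _ (mul_mem (h.sq_W_mem x.2) (h.sq_W_mem y.2)) _ (hcm _ x.2 _ y.2),
        hφ _ (h.sq_W_mem x.2) _ (h.sq_W_mem y.2)])
    (fun x => by
      show φ ⁅(x : T), (x : T)⁆ = 0
      rw [commutatorElement_self, hone])
    (fun x y => by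
      show φ ⁅(x : T), (y : T)⁆ = φ ⁅(y : T), (x : T)⁆
      rw [← commutatorElement_inv, hinv _ (hcm _ y.2 _ x.2)])
    (fun x q hq => by
      show φ ⁅(x : T), (q : T)⁆ = 0
      rw [← commutatorElement_inv, hinv _ (hcm _ q.2 _ x.2)]
      exact hφK _ (hcomm _ hq _ x.2) (hcm _ q.2 _ x.2))
    (fun q hq => hφK _ (hsq _ hq) (h.sq_W_mem q.2))
  -- the kernel
  let N : Subgroup ↥W :=
    { carrier := {x | (x : T) ∈ Zu T 3 ∧ φ x = 0}
      one_mem' := ⟨one_mem _, hone⟩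
      mul_mem' := by
        rintro a b ⟨ha, ha'⟩ ⟨hb, hb'⟩
        exact ⟨mul_mem ha hb, by rw [Subgroup.coe_mul, hφ _ ha _ hb, ha', hb', add_zero]⟩
      inv_mem' := by
        rintro a ⟨ha, ha'⟩
        exact ⟨inv_mem ha, by rw [Subgroup.coe_inv, hinv _ ha, ha']⟩ }
  have hNn : N.Normal := by
    refine ⟨?_⟩
    rintro n ⟨hn, hn'⟩ g
    have h1 := hzc _ hn g g.2
    have e : g * n * g⁻¹ = n := by
      rw [mul_inv_eq_iff_eq_mul]
      exact Subtype.ext h1.symm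
    rw [e]
    exact ⟨hn, hn'⟩
  have h1 := h.frattini_le Y N hY (fun y hy => ⟨h.sq_W_mem y.2, hYs y hy⟩)
  exact hφc (h1 (h.mem_frattini hc)).2

end Cfsg.Agent.H303.RsQuat
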