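import Mathlib
import Cfsg.Agent.Schreier.RuSyl
import Cfsg.Agent.H303.RuMain

set_option autoImplicit false
set_option linter.style.haveILetI false
set_option linter.unnecessarySimpa false

/-! The Sylow 2-subgroup `T` of the group of the Rudvalis graph (`Schreier.RuSyl`) given by its
central series: generalities. -/

namespace Cfsg.Agent.H303.RsRel

open Subgroup
open scoped commutatorElement
open Cfsg.Agent.Schreier Cfsg.Agent.Schreier.PcSeries

/-- A group with the presentation of `Schreier.RuSyl`. -/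
structure Rel (G : Type*) [Group G] (g : ℕ → G) : Prop where
  fin : Finite G
  card : Nat.card G = 2 ^ 14
  top : N g 14 0 = ⊤
  sq : ∀ i < 14, g i * g i = ((RuSyl.sqi i).map g).prod
  comm : ∀ i j, i < j → j < 14 → g i * g j = g j * g i * ((RuSyl.cmi i j).map g).prod

/-- the generators in `T` -/
noncomputable def gT (i : ℕ) : ↥RuSyl.T := ⟨RuSyl.g i, RuSyl.W_mem_T _⟩

theorem coe_prod (e : List ℕ) : (((e.map gT).prod : ↥RuSyl.T) : SporadicB.RuOrder.H) = (e.map RuSyl.g).prod := by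
  induction e with
  | nil => rfl
  | cons i e ih => rw [List.map_cons, List.prod_cons, List.map_cons, List.prod_cons, Subgroup.coe_mul, ih]; rfl

theorem rel_T [Finite ↥RuSyl.T] : Rel ↥RuSyl.T gT where
  fin := inferInstance
  card := RuSyl.card_T
  top := by
    apply Subgroup.map_injective RuSyl.T.subtype_injective
    rw [N, MonoidHom.map_closure, ← MonoidHom.range_eq_map, Subgroup.range_subtype]
    have e : RuSyl.T = Subgroup.closure {x | ∃ i, 0 ≤ i ∧ i < 14 ∧ x = RuSyl.g i} := rfl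
    conv_rhs => rw [e]
    congr 1
    ext x
    constructor
    · rintro ⟨y, ⟨i, h1, h2, rfl⟩, rfl⟩
      exact ⟨i, h1, h2, rfl⟩
    · rintro ⟨i, h1, h2, rfl⟩
      exact ⟨_, ⟨i, h1, h2, rfl⟩, rfl⟩
  sq i hi := by
    apply Subtype.ext
    rw [coe_prod, ← RuSyl.W_ex, ← RuSyl.sq_rel hi]
    rfl
  comm i j hij hj := by
    apply Subtype.ext
    rw [Subgroup.coe_mul, Subgroup.coe_mul, Subgroup.coe_mul, coe_prod, ← RuSyl.W_ex]
    exact RuSyl.comm_rel hij hj

namespace Rel

variable {G : Type*} [Group G] {g : ℕ → G} (h : Rel G g)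
include h

theorem cert : Cert g 14 where
  sq i hi := by
    rw [h.sq i hi]
    exact prod_mem_N (RuSyl.ge_spec (RuSyl.and_of_cond (RuSyl.chkS i hi)).1)
  comm i j hij hj := ⟨_, prod_mem_N (RuSyl.ge_spec (RuSyl.chkG j hj i hij)), h.comm i j hij hj⟩

theorem le_normalizer (k : ℕ) : (N g 14 k).Normal := by
  have := h.fin
  rw [← Subgroup.normalizer_eq_top_iff, eq_top_iff, ← h.top]
  exact h.cert.le_normalizer 0 k

theorem card_le_two_mul {k : ℕ} (hk : k < 14) : Nat.card (N g 14 k) ≤ 2 * Nat.card (N g 14 (k + 1)) := by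
  have := h.fin
  have hnorm := Subgroup.mem_normalizer_iff.1 (h.cert.mem_normalizer hk (k + 1))
  have h2 := LowerCrit.relIndex_sup_zpowers_le (A := N g 14 (k + 1)) (x := g k) (h.cert.sq k hk)
    (fun a ha => (hnorm a).1 ha) (by
      intro a ha
      refine (hnorm _).2 ?_
      have e : g k * ((g k)⁻¹ * a * g k) * (g k)⁻¹ = a := by group
      rw [e]; exact ha)
  rw [← N_succ hk] at h2
  have h3 : Nat.card (N g 14 (k + 1)) * (N g 14 (k + 1)).relIndex (N g 14 k) = Nat.card (N g 14 k) := by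
    have h5 := Subgroup.relIndex_mul_relIndex ⊥ (N g 14 (k + 1)) (N g 14 k) bot_le (N_mono (Nat.le_succ k))
    rwa [Subgroup.relIndex_bot_left, Subgroup.relIndex_bot_left] at h5
  rw [← h3, mul_comm]
  exact Nat.mul_le_mul_right _ h2.2

theorem card_N {k : ℕ} (hk : k ≤ 14) : Nat.card (N g 14 k) = 2 ^ (14 - k) := by
  have := h.fin
  have h1 : ∀ k ≤ 14, 2 ^ 14 ≤ 2 ^ k * Nat.card (N g 14 k) := by
    intro k
    induction k with
    | zero => intro _; rw [h.top, Subgroup.card_top, h.card]; norm_num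
    | succ k ih =>
      intro hk
      have h2 := h.card_le_two_mul (k := k) (by omega)
      calc 2 ^ 14 ≤ 2 ^ k * Nat.card (N g 14 k) := ih (by omega)
        _ ≤ 2 ^ k * (2 * Nat.card (N g 14 (k + 1))) := Nat.mul_le_mul_left _ h2
        _ = _ := by ring
  have h2 := h.cert.card_dvd (14 - k) k (by omega)
  have h3 := Nat.le_of_dvd (by positivity) h2
  refine le_antisymm h3 ?_
  have h4 := h1 k hk
  have h5 : 2 ^ 14 = 2 ^ k * 2 ^ (14 - k) := by rw [← pow_add]; congr 1; omega
  rw [h5] at h4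
  exact Nat.le_of_mul_le_mul_left h4 (by positivity)

theorem card_succ {k : ℕ} (hk : k < 14) : Nat.card (N g 14 k) = 2 * Nat.card (N g 14 (k + 1)) := by
  rw [h.card_N hk.le, h.card_N hk, ← pow_succ']
  congr 1
  omega

theorem not_mem {k : ℕ} (hk : k < 14) : g k ∉ N g 14 (k + 1) := by
  intro hm
  have := h.fin
  have h1 : N g 14 k = N g 14 (k + 1) := by
    rw [N_succ hk]
    apply sup_eq_left.2
    rw [Subgroup.zpowers_le]
    exact hm
  have h2 := h.card_succ hk
  rw [h1] at h2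
  have h3 : 0 < Nat.card (N g 14 (k + 1)) := Nat.card_pos
  omega

theorem mem_or {k : ℕ} (hk : k < 14) {x : G} (hx : x ∈ N g 14 k) :
    x ∈ N g 14 (k + 1) ∨ (g k)⁻¹ * x ∈ N g 14 (k + 1) := by
  have := h.fin
  by_cases hx1 : x ∈ N g 14 (k + 1)
  · exact Or.inl hx1
  · right
    rw [RuMain.Hyp.mul_mem_of_card (N_mono (Nat.le_succ k)) (h.card_succ hk)
      (inv_mem (mem_N le_rfl hk)) hx, inv_mem_iff]
    exact iff_of_false (h.not_mem hk) hx1

/-! ### commutators -/

/-- the commutator word of two generators -/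
def cw (i j : ℕ) : List ℕ := if i < j then RuSyl.cmi i j else if j < i then RuSyl.cmi j i else []

theorem comm_gen {i j m : ℕ} (hi : i < 14) (hj : j < 14) (hm : RuSyl.ge m (cw i j) = true) :
    ⁅g i, g j⁆ ∈ N g 14 m := by
  have := h.fin
  unfold cw at hm
  rcases lt_trichotomy i j with hij | hij | hij
  · rw [if_pos hij] at hm
    exact (h.cert.comm_mem hi hj (prod_mem_N (RuSyl.ge_spec hm)) (h.comm i j hij hj)).1
  · rw [hij, commutatorElement_self]; exact one_mem _
  · rw [if_neg (by omega), if_pos hij] at hm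
    exact (h.cert.comm_mem hj hi (prod_mem_N (RuSyl.ge_spec hm)) (h.comm j i hij hi)).2

theorem comm_le {i k m : ℕ} (hi : i < 14)
    (hm : ∀ j < 14, k ≤ j → RuSyl.ge m (cw j i) = true) {n : G} (hn : n ∈ N g 14 k) :
    ⁅n, g i⁆ ∈ N g 14 m := by
  have hN := h.le_normalizer m
  have h1 : N g 14 k ≤ (Subgroup.centralizer {QuotientGroup.mk' (N g 14 m) (g i)}).comap
      (QuotientGroup.mk' (N g 14 m)) := by
    rw [N, Subgroup.closure_le]
    rintro x ⟨j, h1, h2, rfl⟩
    rw [SetLike.mem_coe, Subgroup.mem_comap, Subgroup.mem_centralizer_singleton_iff]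
    have h3 := h.comm_gen h2 hi (hm j h2 h1)
    have h4 : QuotientGroup.mk' (N g 14 m) ⁅g j, g i⁆ = 1 := (QuotientGroup.eq_one_iff _).2 h3
    rw [map_commutatorElement, commutatorElement_eq_one_iff_mul_comm] at h4
    exact h4
  have h2 := h1 hn
  rw [Subgroup.mem_comap, Subgroup.mem_centralizer_singleton_iff] at h2
  have h3 : QuotientGroup.mk' (N g 14 m) ⁅n, g i⁆ = 1 := by
    rw [map_commutatorElement, commutatorElement_eq_one_iff_mul_comm]
    exact h2
  exact (QuotientGroup.eq_one_iff _).1 h3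

omit h in
/-- `[a n, x] ∈ M`, `[n, x] ∈ M` imply `[a, x] ∈ M`. -/
theorem comm_left {M : Subgroup G} (hM : M.Normal) {a n x : G} (h1 : ⁅a * n, x⁆ ∈ M) (h2 : ⁅n, x⁆ ∈ M) :
    ⁅a, x⁆ ∈ M := by
  have e : ⁅a, x⁆ = ⁅a * n, x⁆ * (x * a * x⁻¹) * ⁅n, x⁆⁻¹ * (x * a * x⁻¹)⁻¹ := by
    simp only [commutatorElement_def]; group
  rw [e, mul_assoc, mul_assoc]
  refine mul_mem h1 ?_
  rw [← mul_assoc]
  exact hM.conj_mem _ (inv_mem h2) _

theorem lead {k i m : ℕ} (hk : k < 14) (hi : i < 14) (hm : m < 14)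
    (hc : cw k i = m :: (cw k i).tail ∧ RuSyl.ge (m + 1) (cw k i).tail = true)
    (hn : ∀ j < 14, k + 1 ≤ j → RuSyl.ge (m + 1) (cw j i) = true)
    {t : G} (ht : t ∈ N g 14 k) (h2 : ⁅t, g i⁆ ∈ N g 14 (m + 1)) : t ∈ N g 14 (k + 1) := by
  have hN := h.le_normalizer (m + 1)
  rcases h.mem_or hk ht with h1 | h1
  · exact h1
  · exfalso
    have h3 := h.comm_le hi hn h1
    have h4 : ⁅g k, g i⁆ ∈ N g 14 (m + 1) := comm_left hN (n := (g k)⁻¹ * t) (by
      rw [mul_inv_cancel_left]; exact h2) h3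
    have h5 : ((cw k i).map g).prod ∈ N g 14 (m + 1) := by
      unfold cw at hc ⊢
      rcases lt_trichotomy k i with hki | hki | hki
      · rw [if_pos hki]
        have e : ((RuSyl.cmi k i).map g).prod = (g i * g k)⁻¹ * ⁅g k, g i⁆ * ((g i * g k)⁻¹)⁻¹ := by
          have := h.comm k i hki hi
          rw [commutatorElement_def, this]; group
        rw [e]
        exact hN.conj_mem _ h4 _
      · subst hki
        rw [if_neg (lt_irrefl _), if_neg (lt_irrefl _)] at hc
        exact absurd hc.1 (by simp)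
      · rw [if_neg (by omega), if_pos hki]
        have e : ((RuSyl.cmi i k).map g).prod = (g k * g i)⁻¹ * ⁅g k, g i⁆⁻¹ * ((g k * g i)⁻¹)⁻¹ := by
          have := h.comm i k hki hk
          rw [commutatorElement_inv, commutatorElement_def, this]; group
        rw [e]
        exact hN.conj_mem _ (inv_mem h4) _
    rw [hc.1, List.map_cons, List.prod_cons] at h5
    have h6 : (((cw k i).tail).map g).prod ∈ N g 14 (m + 1) := prod_mem_N (RuSyl.ge_spec hc.2)
    exact h.not_mem hm ((Subgroup.mul_mem_cancel_right _ h6).1 h5)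

end Rel

end Cfsg.Agent.H303.RsRel
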