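import Cfsg.Agent.H303.RsRel

set_option autoImplicit false
set_option linter.style.haveILetI false
set_option linter.unnecessarySimpa false
set_option maxRecDepth 10000

/-! The upper central series of the group of `RsRel`. -/

namespace Cfsg.Agent.H303.RsRel

open Subgroup
open scoped commutatorElement
open Cfsg.Agent.Schreier Cfsg.Agent.Schreier.PcSeries

local notation "Zu" => Subgroup.upperCentralSeries

namespace Rel

variable {G : Type*} [Group G] {g : ℕ → G}

/-- `W` -/
def W (g : ℕ → G) : Subgroup G := Subgroup.centralizer (N g 14 11 : Set G)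

variable (h : Rel G g)
include h

theorem g_mem_W {i : ℕ} (hi : i < 14) (h1 : i ≠ 1) (h2 : i ≠ 2) (h3 : i ≠ 3) : g i ∈ W g := by
  rw [W, Subgroup.mem_centralizer_iff]
  intro n hn
  have e : ∀ i < 14, (i = 1 ∨ i = 2 ∨ i = 3) ∨ ∀ j < 14, 11 ≤ j → RuSyl.ge 14 (cw j i) = true := by decide
  have h4 := h.comm_le (k := 11) (m := 14) hi ((e i hi).resolve_left (by omega)) hn
  rw [N_eq_bot le_rfl, Subgroup.mem_bot, commutatorElement_eq_one_iff_mul_comm] at h4
  exact h4

theorem N4_le_W : N g 14 4 ≤ W g := by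
  rw [N, Subgroup.closure_le]
  rintro x ⟨i, h1, h2, rfl⟩
  exact h.g_mem_W h2 (by omega) (by omega) (by omega)

theorem g0_mem_W : g 0 ∈ W g := h.g_mem_W (by norm_num) (by norm_num) (by norm_num) (by norm_num)

theorem exists_N1 (t : G) : t ∈ N g 14 1 ∨ (g 0)⁻¹ * t ∈ N g 14 1 :=
  h.mem_or (k := 0) (by norm_num) (by rw [h.top]; exact mem_top t)

/-- elements of `N 1` centralising `g11` and `g12` -/
theorem mem_N4_of_N1 {s : G} (hs : s ∈ N g 14 1) (h11 : ⁅s, g 11⁆ = 1) (h12 : ⁅s, g 12⁆ = 1) :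
    s ∈ N g 14 4 := by
  have h2 : s ∈ N g 14 2 := h.lead (k := 1) (i := 11) (m := 12) (by norm_num) (by norm_num) (by norm_num)
    (by decide) (by decide) hs (by rw [h11]; exact one_mem _)
  have h3 : s ∈ N g 14 3 := h.lead (k := 2) (i := 12) (m := 13) (by norm_num) (by norm_num) (by norm_num)
    (by decide) (by decide) h2 (by rw [h12]; exact one_mem _)
  exact h.lead (k := 3) (i := 11) (m := 13) (by norm_num) (by norm_num) (by norm_num)
    (by decide) (by decide) h3 (by rw [h11]; exact one_mem _)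

omit h in
theorem comm_of_mem_W {s : G} (hs : s ∈ W g) {i : ℕ} (h1 : 11 ≤ i) (h2 : i < 14) : ⁅s, g i⁆ = 1 := by
  rw [commutatorElement_eq_one_iff_mul_comm]
  rw [W, Subgroup.mem_centralizer_iff] at hs
  exact (hs (g i) (mem_N h1 h2)).symm

theorem mem_W_iff {t : G} : t ∈ W g ↔ (t ∈ N g 14 4 ∨ (g 0)⁻¹ * t ∈ N g 14 4) := by
  constructor
  · intro ht
    have key : ∀ s ∈ W g, s ∈ N g 14 1 → s ∈ N g 14 4 := fun s hs hs1 =>
      h.mem_N4_of_N1 hs1 (comm_of_mem_W hs (by norm_num) (by norm_num))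
        (comm_of_mem_W hs (by norm_num) (by norm_num))
    rcases h.exists_N1 t with h1 | h1
    · exact Or.inl (key t ht h1)
    · exact Or.inr (key _ (mul_mem (inv_mem h.g0_mem_W) ht) h1)
  · rintro (h1 | h1)
    · exact h.N4_le_W h1
    · have := mul_mem h.g0_mem_W (h.N4_le_W h1)
      rwa [mul_inv_cancel_left] at this

/-- the commutators of `W` are in `R = N 11` -/
theorem comm_W_g {i : ℕ} (hi : i < 14) (h1 : i ≠ 1) (h2 : i ≠ 2) (h3 : i ≠ 3) {w : G} (hw : w ∈ W g) :
    ⁅w, g i⁆ ∈ N g 14 11 := by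
  have hN := h.le_normalizer 11
  have e : ∀ i < 14, (i = 1 ∨ i = 2 ∨ i = 3) ∨ ∀ j < 14, 4 ≤ j → RuSyl.ge 11 (cw j i) = true := by decide
  have e0 : ∀ i < 14, (i = 1 ∨ i = 2 ∨ i = 3) ∨ RuSyl.ge 11 (cw 0 i) = true := by decide
  have key : ∀ s ∈ N g 14 4, ⁅s, g i⁆ ∈ N g 14 11 := fun s hs =>
    h.comm_le hi ((e i hi).resolve_left (by omega)) hs
  rcases h.mem_W_iff.1 hw with hw | hw
  · exact key w hw
  · have h4 := key _ hw
    have h5 : ⁅g 0, g i⁆ ∈ N g 14 11 := h.comm_gen (by norm_num) hi ((e0 i hi).resolve_left (by omega))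
    have e : ⁅w, g i⁆ = g 0 * ⁅(g 0)⁻¹ * w, g i⁆ * (g 0)⁻¹ * ⁅g 0, g i⁆ := by
      simp only [commutatorElement_def]; group
    rw [e]
    exact mul_mem (hN.conj_mem _ h4 _) h5

theorem comm_W {w v : G} (hw : w ∈ W g) (hv : v ∈ W g) : ⁅w, v⁆ ∈ N g 14 11 := by
  have hN := h.le_normalizer 11
  -- the elements `v` with `[w, v] ∈ N 11`
  have h1 : N g 14 4 ≤ (Subgroup.centralizer {QuotientGroup.mk' (N g 14 11) w}).comap
      (QuotientGroup.mk' (N g 14 11)) := by
    rw [N, Subgroup.closure_le]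
    rintro x ⟨j, h1, h2, rfl⟩
    rw [SetLike.mem_coe, Subgroup.mem_comap, Subgroup.mem_centralizer_singleton_iff]
    have h3 := h.comm_W_g h2 (by omega) (by omega) (by omega) hw
    have h4 : QuotientGroup.mk' (N g 14 11) ⁅w, g j⁆ = 1 := (QuotientGroup.eq_one_iff _).2 h3
    rw [map_commutatorElement, commutatorElement_eq_one_iff_mul_comm] at h4
    exact h4.symm
  have h0 : g 0 ∈ (Subgroup.centralizer {QuotientGroup.mk' (N g 14 11) w}).comap
      (QuotientGroup.mk' (N g 14 11)) := by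
    rw [Subgroup.mem_comap, Subgroup.mem_centralizer_singleton_iff]
    have h3 := h.comm_W_g (i := 0) (by norm_num) (by omega) (by omega) (by omega) hw
    have h4 : QuotientGroup.mk' (N g 14 11) ⁅w, g 0⁆ = 1 := (QuotientGroup.eq_one_iff _).2 h3
    rw [map_commutatorElement, commutatorElement_eq_one_iff_mul_comm] at h4
    exact h4.symm
  have h2 : v ∈ (Subgroup.centralizer {QuotientGroup.mk' (N g 14 11) w}).comap
      (QuotientGroup.mk' (N g 14 11)) := by
    rcases h.mem_W_iff.1 hv with hv | hv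
    · exact h1 hv
    · have := mul_mem h0 (h1 hv)
      rwa [mul_inv_cancel_left] at this
  rw [Subgroup.mem_comap, Subgroup.mem_centralizer_singleton_iff] at h2
  have h3 : QuotientGroup.mk' (N g 14 11) ⁅w, v⁆ = 1 := by
    rw [map_commutatorElement, commutatorElement_eq_one_iff_mul_comm]
    exact h2.symm
  exact (QuotientGroup.eq_one_iff _).1 h3

/-- **Claim A**: the kernel of the action on `W / R` -/
theorem claimA {t : G} (ht : ∀ x ∈ W g, ⁅t, x⁆ ∈ N g 14 11) : t ∈ W g := by
  have hN := h.le_normalizer 11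
  have key : ∀ s ∈ N g 14 1, (∀ x ∈ W g, ⁅s, x⁆ ∈ N g 14 11) → s ∈ N g 14 4 := by
    intro s hs1 hs
    have h2 : s ∈ N g 14 2 := h.lead (k := 1) (i := 4) (m := 6) (by norm_num) (by norm_num) (by norm_num)
      (by decide) (by decide) hs1 (N_mono (by norm_num)
        (hs _ (h.g_mem_W (by norm_num) (by norm_num) (by norm_num) (by norm_num))))
    have h3 : s ∈ N g 14 3 := h.lead (k := 2) (i := 5) (m := 7) (by norm_num) (by norm_num) (by norm_num)
      (by decide) (by decide) h2 (N_mono (by norm_num)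
        (hs _ (h.g_mem_W (by norm_num) (by norm_num) (by norm_num) (by norm_num))))
    exact h.lead (k := 3) (i := 0) (m := 6) (by norm_num) (by norm_num) (by norm_num)
      (by decide) (by decide) h3 (N_mono (by norm_num)
        (hs _ (h.g_mem_W (by norm_num) (by norm_num) (by norm_num) (by norm_num))))
  rw [h.mem_W_iff]
  rcases h.exists_N1 t with h1 | h1
  · exact Or.inl (key t h1 ht)
  · refine Or.inr (key _ h1 ?_)
    intro x hx
    have h2 := h.comm_W h.g0_mem_W hx
    have h3 := ht x hx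
    have e : ⁅(g 0)⁻¹ * t, x⁆ = (g 0)⁻¹ * (⁅t, x⁆ * ⁅g 0, x⁆⁻¹) * ((g 0)⁻¹)⁻¹ := by
      simp only [commutatorElement_def]; group
    rw [e]
    exact hN.conj_mem _ (mul_mem h3 (inv_mem h2)) _

/-- **Claim C**: the fixed points on `W / R` -/
theorem claimC {t : G} (htW : t ∈ W g) (ht : ∀ x, ⁅t, x⁆ ∈ N g 14 11) : t ∈ N g 14 10 := by
  have h4 : t ∈ N g 14 4 := by
    rcases h.mem_W_iff.1 htW with h1 | h1
    · exact h1
    · exfalso
      have h2 : ⁅(g 0)⁻¹ * t, g 1⁆ ∈ N g 14 6 := h.comm_le (k := 4) (by norm_num) (by decide) h1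
      have h3 : ⁅g 0, g 1⁆ ∈ N g 14 6 := comm_left (h.le_normalizer 6) (n := (g 0)⁻¹ * t)
        (by rw [mul_inv_cancel_left]; exact N_mono (by norm_num) (ht _)) h2
      have h4 : g 0 * g 1 = g 1 * g 0 * g 5 := by
        have := h.comm 0 1 (by norm_num) (by norm_num)
        have e : RuSyl.cmi 0 1 = [5] := rfl
        rw [e] at this
        simpa using this
      have h5 : g 5 = (g 1 * g 0)⁻¹ * ⁅g 0, g 1⁆ * ((g 1 * g 0)⁻¹)⁻¹ := by
        rw [commutatorElement_def, h4]; group
      apply h.not_mem (k := 5) (by norm_num)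
      rw [h5]
      exact (h.le_normalizer 6).conj_mem _ h3 _
  have h5 : t ∈ N g 14 5 := h.lead (k := 4) (i := 1) (m := 6) (by norm_num) (by norm_num) (by norm_num)
    (by decide) (by decide) h4 (N_mono (by norm_num) (ht _))
  have h6 : t ∈ N g 14 6 := h.lead (k := 5) (i := 2) (m := 7) (by norm_num) (by norm_num) (by norm_num)
    (by decide) (by decide) h5 (N_mono (by norm_num) (ht _))
  have h7 : t ∈ N g 14 7 := h.lead (k := 6) (i := 2) (m := 8) (by norm_num) (by norm_num) (by norm_num)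
    (by decide) (by decide) h6 (N_mono (by norm_num) (ht _))
  have h8 : t ∈ N g 14 8 := h.lead (k := 7) (i := 1) (m := 9) (by norm_num) (by norm_num) (by norm_num)
    (by decide) (by decide) h7 (N_mono (by norm_num) (ht _))
  have h9 : t ∈ N g 14 9 := h.lead (k := 8) (i := 1) (m := 10) (by norm_num) (by norm_num) (by norm_num)
    (by decide) (by decide) h8 (N_mono (by norm_num) (ht _))
  exact h.lead (k := 9) (i := 2) (m := 10) (by norm_num) (by norm_num) (by norm_num)
    (by decide) (by decide) h9 (N_mono (by norm_num) (ht _))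

/-- **Claim D** -/
theorem claimD1 {t : G} (ht : t ∈ N g 14 11) (h1 : ∀ x, ⁅t, x⁆ ∈ N g 14 13) : t ∈ N g 14 12 :=
  h.lead (k := 11) (i := 1) (m := 12) (by norm_num) (by norm_num) (by norm_num)
    (by decide) (by decide) ht (h1 _)

theorem claimD2 {t : G} (ht : t ∈ N g 14 12) (h1 : ∀ x : G, ⁅t, x⁆ = 1) : t ∈ N g 14 13 :=
  h.lead (k := 12) (i := 2) (m := 13) (by norm_num) (by norm_num) (by norm_num)
    (by decide) (by decide) ht (by rw [h1]; exact one_mem _)

/-- the series is central -/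
theorem comm_top {k : ℕ} {t : G} (ht : t ∈ N g 14 k) (hk : k < 14) (x : G) : ⁅t, x⁆ ∈ N g 14 (k + 1) := by
  have hN := h.le_normalizer (k + 1)
  have h1 : N g 14 0 ≤ (Subgroup.centralizer {QuotientGroup.mk' (N g 14 (k + 1)) t}).comap
      (QuotientGroup.mk' (N g 14 (k + 1))) := by
    rw [N, Subgroup.closure_le]
    rintro x ⟨j, h1, h2, rfl⟩
    rw [SetLike.mem_coe, Subgroup.mem_comap, Subgroup.mem_centralizer_singleton_iff]
    have e : ∀ k < 14, ∀ j < 14, ∀ i < 14, k ≤ i → RuSyl.ge (k + 1) (cw i j) = true := by decide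
    have h3 := h.comm_le h2 (e k hk j h2) ht
    have h4 : QuotientGroup.mk' (N g 14 (k + 1)) ⁅t, g j⁆ = 1 := (QuotientGroup.eq_one_iff _).2 h3
    rw [map_commutatorElement, commutatorElement_eq_one_iff_mul_comm] at h4
    exact h4.symm
  have h2 : x ∈ (Subgroup.centralizer {QuotientGroup.mk' (N g 14 (k + 1)) t}).comap
      (QuotientGroup.mk' (N g 14 (k + 1))) := h1 (by rw [h.top]; exact mem_top x)
  rw [Subgroup.mem_comap, Subgroup.mem_centralizer_singleton_iff] at h2
  have h3 : QuotientGroup.mk' (N g 14 (k + 1)) ⁅t, x⁆ = 1 := by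
    rw [map_commutatorElement, commutatorElement_eq_one_iff_mul_comm]
    exact h2.symm
  exact (QuotientGroup.eq_one_iff _).1 h3

end Rel

end Cfsg.Agent.H303.RsRel
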