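import Mathlib
import Cfsg.Agent.H303.RuDih

set_option autoImplicit false
set_option linter.style.haveILetI false
set_option linter.unnecessarySimpa false

/-! 2-groups of "Rudvalis type": `Z(W) = Z_3(T)`. -/

namespace Cfsg.Agent.H303.RuMain

open Subgroup
open scoped commutatorElement

local notation "Zu" => Subgroup.upperCentralSeries

variable {T : Type*} [Group T]

/-- A combinatorial fact about functions on the dihedral group of order 8. -/
theorem dihedral_fact (κ : DihedralGroup 4 → ZMod 2) (A' : Subgroup (DihedralGroup 4))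
    (hA2 : A'.index = 2) (hsq : ∀ a ∈ A', a * a = 1) (h0 : ∀ a ∈ A', κ a = 0)
    (hinv : ∀ d, κ d⁻¹ = κ d) (hsum : ∑ d, κ d = 0) (d : DihedralGroup 4) :
    κ d = κ (d * DihedralGroup.r 2) := by
  have hr2 : (DihedralGroup.r 2 : DihedralGroup 4) ∈ A' := by
    have := Subgroup.mul_self_mem_of_index_two hA2 (DihedralGroup.r 1 : DihedralGroup 4)
    have e : (DihedralGroup.r 1 : DihedralGroup 4) * DihedralGroup.r 1 = DihedralGroup.r 2 := by
      decide
    rwa [e] at this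
  have hr1 : (DihedralGroup.r 1 : DihedralGroup 4) ∉ A' := by
    intro h
    have := hsq _ h
    revert this
    decide
  have k0 : κ (DihedralGroup.r 0) = 0 := h0 _ (by
    have : (DihedralGroup.r 0 : DihedralGroup 4) = 1 := rfl
    rw [this]; exact A'.one_mem)
  have k2 : κ (DihedralGroup.r 2) = 0 := h0 _ hr2
  have k13 : κ (DihedralGroup.r 3) = κ (DihedralGroup.r 1) := by
    have := hinv (DihedralGroup.r 1)
    have e : (DihedralGroup.r 1 : DihedralGroup 4)⁻¹ = DihedralGroup.r 3 := by decide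
    rwa [e] at this
  have hsum' : κ (DihedralGroup.r 0) + κ (DihedralGroup.r 1) + κ (DihedralGroup.r 2) +
      κ (DihedralGroup.r 3) + (κ (DihedralGroup.sr 0) + κ (DihedralGroup.sr 1) +
      κ (DihedralGroup.sr 2) + κ (DihedralGroup.sr 3)) = 0 := by
    have huniv : (Finset.univ : Finset (DihedralGroup 4)) =
        {DihedralGroup.r 0, DihedralGroup.r 1, DihedralGroup.r 2, DihedralGroup.r 3,
          DihedralGroup.sr 0, DihedralGroup.sr 1, DihedralGroup.sr 2, DihedralGroup.sr 3} := by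
      decide
    rw [huniv] at hsum
    rw [Finset.sum_insert (by decide), Finset.sum_insert (by decide),
      Finset.sum_insert (by decide), Finset.sum_insert (by decide),
      Finset.sum_insert (by decide), Finset.sum_insert (by decide),
      Finset.sum_insert (by decide), Finset.sum_singleton] at hsum
    rw [← hsum]
    abel
  have key : κ (DihedralGroup.sr 0) = κ (DihedralGroup.sr 2) ∧
      κ (DihedralGroup.sr 1) = κ (DihedralGroup.sr 3) := by
    by_cases hs0 : (DihedralGroup.sr 0 : DihedralGroup 4) ∈ A'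
    · have hs2 : (DihedralGroup.sr 2 : DihedralGroup 4) ∈ A' := by
        have := A'.mul_mem hs0 hr2
        have e : (DihedralGroup.sr 0 : DihedralGroup 4) * DihedralGroup.r 2 =
          DihedralGroup.sr 2 := by decide
        rwa [e] at this
      have e0 := h0 _ hs0
      have e2 := h0 _ hs2
      rw [k0, k2, k13, e0, e2] at hsum'
      refine ⟨by rw [e0, e2], ?_⟩
      generalize κ (DihedralGroup.r 1) = a at hsum'
      generalize κ (DihedralGroup.sr 1) = b at *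
      generalize κ (DihedralGroup.sr 3) = c at *
      revert a b c
      decide
    · have hs1 : (DihedralGroup.sr 1 : DihedralGroup 4) ∈ A' := by
        have := (Subgroup.mul_mem_iff_of_index_two hA2 (a := (DihedralGroup.sr 0 : DihedralGroup 4))
          (b := DihedralGroup.r 1)).2 (iff_of_false hs0 hr1)
        have e : (DihedralGroup.sr 0 : DihedralGroup 4) * DihedralGroup.r 1 =
          DihedralGroup.sr 1 := by decide
        rwa [e] at this
      have hs3 : (DihedralGroup.sr 3 : DihedralGroup 4) ∈ A' := by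
        have := A'.mul_mem hs1 hr2
        have e : (DihedralGroup.sr 1 : DihedralGroup 4) * DihedralGroup.r 2 =
          DihedralGroup.sr 3 := by decide
        rwa [e] at this
      have e1 := h0 _ hs1
      have e3 := h0 _ hs3
      rw [k0, k2, k13, e1, e3] at hsum'
      refine ⟨?_, by rw [e1, e3]⟩
      generalize κ (DihedralGroup.r 1) = a at hsum'
      generalize κ (DihedralGroup.sr 0) = b at *
      generalize κ (DihedralGroup.sr 2) = c at *
      revert a b c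
      decide
  obtain ⟨key1, key2⟩ := key
  have hall : ∀ d : DihedralGroup 4, d = DihedralGroup.r 0 ∨ d = DihedralGroup.r 1 ∨
      d = DihedralGroup.r 2 ∨ d = DihedralGroup.r 3 ∨ d = DihedralGroup.sr 0 ∨
      d = DihedralGroup.sr 1 ∨ d = DihedralGroup.sr 2 ∨ d = DihedralGroup.sr 3 := by decide
  rcases hall d with rfl | rfl | rfl | rfl | rfl | rfl | rfl | rfl
  · rw [show (DihedralGroup.r 0 : DihedralGroup 4) * DihedralGroup.r 2 = DihedralGroup.r 2 by
      decide, k0, k2]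
  · rw [show (DihedralGroup.r 1 : DihedralGroup 4) * DihedralGroup.r 2 = DihedralGroup.r 3 by
      decide, k13]
  · rw [show (DihedralGroup.r 2 : DihedralGroup 4) * DihedralGroup.r 2 = DihedralGroup.r 0 by
      decide, k0, k2]
  · rw [show (DihedralGroup.r 3 : DihedralGroup 4) * DihedralGroup.r 2 = DihedralGroup.r 1 by
      decide, k13]
  · rw [show (DihedralGroup.sr 0 : DihedralGroup 4) * DihedralGroup.r 2 = DihedralGroup.sr 2 by
      decide, key1]
  · rw [show (DihedralGroup.sr 1 : DihedralGroup 4) * DihedralGroup.r 2 = DihedralGroup.sr 3 by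
      decide, key2]
  · rw [show (DihedralGroup.sr 2 : DihedralGroup 4) * DihedralGroup.r 2 = DihedralGroup.sr 0 by
      decide, key1]
  · rw [show (DihedralGroup.sr 3 : DihedralGroup 4) * DihedralGroup.r 2 = DihedralGroup.sr 1 by
      decide, key2]

open Classical in
/-- The commutator form modulo `Z_2`. -/
noncomputable def cf (x y : T) : ZMod 2 := if ⁅x, y⁆ ∈ Zu T 2 then 0 else 1

theorem cf_eq_zero {x y : T} : cf x y = 0 ↔ ⁅x, y⁆ ∈ Zu T 2 := by
  unfold cf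
  split_ifs with h <;> simp [h]

open Classical in
/-- The squaring map modulo `Z_2`. -/
noncomputable def sf (x : T) : ZMod 2 := if x ^ 2 ∈ Zu T 2 then 0 else 1

theorem sf_eq_zero {x : T} : sf x = 0 ↔ x ^ 2 ∈ Zu T 2 := by
  unfold sf
  split_ifs with h <;> simp [h]

theorem zmod2_ext {a b : ZMod 2} (h : a = 0 ↔ b = 0) : a = b := by
  revert a b; decide

theorem zmod2_add {a b : ZMod 2} : a + b = 0 ↔ (a = 0 ↔ b = 0) := by
  revert a b; decide

namespace Hyp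

variable {W : Subgroup T}

theorem cf_mul_right (h : Hyp T W) {x y z : T} (hx : x ∈ W) (hy : y ∈ W) (hz : z ∈ W) :
    cf x (y * z) = cf x y + cf x z := by
  apply zmod2_ext
  rw [zmod2_add, cf_eq_zero, cf_eq_zero, cf_eq_zero]
  have e : ⁅x, y * z⁆ = ⁅x, y⁆ * ⁅x, z⁆ := by
    have h1 : ⁅x, y * z⁆ = ⁅x, y⁆ * (y * ⁅x, z⁆) * y⁻¹ := by
      simp only [commutatorElement_def]; group
    rw [h1, ← h.comm_Z3_W (h.comm_W_mem hx hz) hy]
    group
  rw [e]
  exact h.mul3 (h.comm_W_mem hx hy) (h.comm_W_mem hx hz)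

theorem cf_symm (_h : Hyp T W) (x y : T) : cf x y = cf y x := by
  apply zmod2_ext
  rw [cf_eq_zero, cf_eq_zero, ← commutatorElement_inv, inv_mem_iff]

theorem cf_self (_h : Hyp T W) (x : T) : cf x x = 0 := by
  rw [cf_eq_zero, commutatorElement_self]
  exact one_mem _

theorem cf_conj (_h : Hyp T W) (g x y : T) : cf (g * x * g⁻¹) (g * y * g⁻¹) = cf x y := by
  apply zmod2_ext
  rw [cf_eq_zero, cf_eq_zero]
  have e : ⁅g * x * g⁻¹, g * y * g⁻¹⁆ = g * ⁅x, y⁆ * g⁻¹ := by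
    simp only [commutatorElement_def]; group
  rw [e]
  have hn : (Zu T 2).Normal := inferInstance
  constructor
  · intro hm
    have := hn.conj_mem _ hm g⁻¹
    simpa [mul_assoc] using this
  · intro hm
    exact hn.conj_mem _ hm g

theorem cf_Z3 (h : Hyp T W) {x z : T} (hx : x ∈ W) (hz : z ∈ Zu T 3) : cf x z = 0 := by
  rw [cf_eq_zero, commutatorElement_eq_one_iff_mul_comm.2 (h.comm_Z3_W hz hx).symm]
  exact one_mem _

theorem conj_W (h : Hyp T W) {x : T} (hx : x ∈ W) (g : T) : g * x * g⁻¹ ∈ W :=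
  h.normalW.conj_mem x hx g

/-- `cf x (g u g⁻¹)` depends only on `g W`. -/
theorem cf_coset (h : Hyp T W) {x u w : T} (hx : x ∈ W) (hu : u ∈ W) (hw : w ∈ W) (g : T) :
    cf x ((g * w) * u * (g * w)⁻¹) = cf x (g * u * g⁻¹) := by
  have e : (g * w) * u * (g * w)⁻¹ = (g * ⁅w, u⁆ * g⁻¹) * (g * u * g⁻¹) := by
    rw [commutatorElement_def]; group
  have hn : (Zu T 3).Normal := inferInstance
  have h3 : g * ⁅w, u⁆ * g⁻¹ ∈ Zu T 3 := hn.conj_mem _ (h.comm_W_mem hw hu) g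
  rw [e, h.cf_mul_right hx (h.Z3_le_W h3) (h.conj_W hu g), h.cf_Z3 hx h3, zero_add]

theorem cf_out (h : Hyp T W) {x u : T} (hx : x ∈ W) (hu : u ∈ W) (g : T) :
    cf x ((QuotientGroup.mk g : T ⧸ W).out * u * (QuotientGroup.mk g : T ⧸ W).out⁻¹) =
      cf x (g * u * g⁻¹) := by
  obtain ⟨k, hk⟩ := QuotientGroup.mk_out_eq_mul W g
  rw [hk]
  exact h.cf_coset hx hu k.2 g

theorem cf_A (h : Hyp T W) {x a : T} (hx : x ∈ W) (ha : a ∈ A T) : cf x (a * x * a⁻¹) = 0 := by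
  by_cases haW : a ∈ W
  · have e : a * x * a⁻¹ = ⁅a, x⁆ * x := by rw [commutatorElement_def]; group
    rw [e, h.cf_mul_right hx (h.Z3_le_W (h.comm_W_mem haW hx)) hx,
      h.cf_Z3 hx (h.comm_W_mem haW hx), h.cf_self, add_zero]
  · rw [cf_eq_zero]
    set x' := a * x * a⁻¹ with hx'
    have hx'W : x' ∈ W := h.conj_W hx a
    have hc3 : ⁅x, x'⁆ ∈ Zu T 3 := h.comm_W_mem hx hx'W
    by_contra hc2
    apply haW
    refine h.cent_Z3 hc3 hc2 ?_ (mem_A.1 ha)
    -- `a` commutes with `[x, x^a]`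
    have e1 : a * ⁅x, x'⁆ * a⁻¹ = ⁅x', a ^ 2 * x * (a ^ 2)⁻¹⁆ := by
      rw [hx']; simp only [commutatorElement_def, pow_two]; group
    have e2 : a ^ 2 * x * (a ^ 2)⁻¹ = ⁅a ^ 2, x⁆ * x := by
      rw [commutatorElement_def]; group
    have hz : ⁅a ^ 2, x⁆ ∈ Zu T 3 := h.comm_W_mem (h.sq_A ha) hx
    have e3 : ⁅x', ⁅a ^ 2, x⁆ * x⁆ = ⁅x', x⁆ := by
      have hcz := h.comm_Z3_W hz hx'W
      have h1 : ⁅x', ⁅a ^ 2, x⁆ * x⁆ = (x' * ⁅a ^ 2, x⁆) * x * x'⁻¹ * x⁻¹ * ⁅a ^ 2, x⁆⁻¹ := by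
        rw [commutatorElement_def x' (⁅a ^ 2, x⁆ * x)]; group
      have h2 : x * x'⁻¹ * x⁻¹ * ⁅a ^ 2, x⁆⁻¹ = ⁅a ^ 2, x⁆⁻¹ * (x * x'⁻¹ * x⁻¹) := by
        have hm : x * x'⁻¹ * x⁻¹ ∈ W := h.conj_W (inv_mem hx'W) x
        exact (h.comm_Z3_W (inv_mem hz) hm).symm
      calc ⁅x', ⁅a ^ 2, x⁆ * x⁆ = (x' * ⁅a ^ 2, x⁆) * x * x'⁻¹ * x⁻¹ * ⁅a ^ 2, x⁆⁻¹ := h1
        _ = (⁅a ^ 2, x⁆ * x') * (x * x'⁻¹ * x⁻¹ * ⁅a ^ 2, x⁆⁻¹) := by rw [← hcz]; group
        _ = (⁅a ^ 2, x⁆ * x') * (⁅a ^ 2, x⁆⁻¹ * (x * x'⁻¹ * x⁻¹)) := by rw [h2]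
        _ = (x' * ⁅a ^ 2, x⁆) * (⁅a ^ 2, x⁆⁻¹ * (x * x'⁻¹ * x⁻¹)) := by rw [hcz]
        _ = ⁅x', x⁆ := by rw [commutatorElement_def]; group
    rw [e2, e3, ← commutatorElement_inv x x', h.inv_Z3 hc3] at e1
    calc ⁅x, x'⁆ * a = (a * ⁅x, x'⁆ * a⁻¹) * a := by rw [e1]
      _ = a * ⁅x, x'⁆ := by group

theorem cf_inv_conj (h : Hyp T W) (x g : T) :
    cf x (g⁻¹ * x * g) = cf x (g * x * g⁻¹) := by
  have h1 := h.cf_conj g x (g⁻¹ * x * g)
  rw [← h1, h.cf_symm]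
  congr 1
  group

/-- `V = W/Z_3`. -/
abbrev V (W : Subgroup T) : Subgroup (T ⧸ Zu T 3) := W.map (QuotientGroup.mk' (Zu T 3))

theorem mem_V {w : T} (hw : w ∈ W) : QuotientGroup.mk' (Zu T 3) w ∈ V W :=
  Subgroup.mem_map_of_mem _ hw

theorem normalV (h : Hyp T W) : (V W).Normal :=
  Subgroup.Normal.map h.normalW _ (QuotientGroup.mk'_surjective _)

theorem V_facts (h : Hyp T W) : (∀ x ∈ V W, x ^ 2 = 1) ∧ (∀ x ∈ V W, ∀ y ∈ V W, x * y = y * x) ∧
    (V W).index = 8 ∧ Nat.card ↥(V W) = 2 ^ 8 := by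
  obtain ⟨h1, h2, h3, h4⟩ := h.quot_facts le_rfl h.orders.2.1
  refine ⟨h1, h2, by rw [h3, h.orders.1], ?_⟩
  rw [h.orders.2.2.2] at h4
  have : (2 : ℕ) ^ 11 = 2 ^ 8 * 2 ^ 3 := by norm_num
  rw [this] at h4
  exact Nat.eq_of_mul_eq_mul_right (by norm_num) h4

theorem mk_eq_iff {a b : T} :
    QuotientGroup.mk' (Zu T 3) a = QuotientGroup.mk' (Zu T 3) b ↔ a⁻¹ * b ∈ Zu T 3 := by
  rw [QuotientGroup.mk'_eq_mk']
  constructor
  · rintro ⟨z, hz, rfl⟩
    simpa using hz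
  · intro hz
    exact ⟨_, hz, by group⟩

/-- Homomorphisms from `V = W/Z_3`. -/
theorem exists_psi (h : Hyp T W) (φ : T → ZMod 2)
    (hmul : ∀ x ∈ W, ∀ y ∈ W, φ (x * y) = φ x + φ y) (h3 : ∀ z ∈ Zu T 3, φ z = 0) :
    ∃ ψ : ↥(V W) →* Multiplicative (ZMod 2), ∀ (w : T) (hw : w ∈ W),
      ψ ⟨QuotientGroup.mk' (Zu T 3) w, mem_V hw⟩ = Multiplicative.ofAdd (φ w) := by
  have hwd : ∀ a ∈ W, ∀ b ∈ W, QuotientGroup.mk' (Zu T 3) a = QuotientGroup.mk' (Zu T 3) b →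
      φ a = φ b := by
    intro a ha b hb hab
    rw [mk_eq_iff] at hab
    have e : b = a * (a⁻¹ * b) := by group
    rw [e, hmul a ha _ (h.Z3_le_W hab), h3 _ hab, add_zero]
  have hch : ∀ v : ↥(V W), ∃ w ∈ W, QuotientGroup.mk' (Zu T 3) w = v := fun v => v.2
  choose r hr hr' using hch
  refine ⟨⟨⟨fun v => Multiplicative.ofAdd (φ (r v)), ?_⟩, ?_⟩, ?_⟩
  · have : φ (r 1) = φ 1 := hwd _ (hr 1) _ W.one_mem (by rw [hr']; simp)
    rw [this, h3 1 (one_mem _)]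
    rfl
  · intro v v'
    have : φ (r (v * v')) = φ (r v * r v') :=
      hwd _ (hr _) _ (W.mul_mem (hr v) (hr v')) (by
        rw [hr', map_mul, hr', hr']; rfl)
    show Multiplicative.ofAdd (φ (r (v * v'))) = _
    rw [this, hmul _ (hr v) _ (hr v')]
    rfl
  · intro w hw
    show Multiplicative.ofAdd (φ (r _)) = _
    congr 1
    exact hwd _ (hr _) _ hw (by rw [hr'])

theorem norm_mem (h : Hyp T W) [Fintype (T ⧸ W)] {u : T} (hu : u ∈ W) :
    ∃ n ∈ Zu T 4, ∃ hn : n ∈ W, ∀ ψ : ↥(V W) →* Multiplicative (ZMod 2),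
      ψ ⟨QuotientGroup.mk' (Zu T 3) n, mem_V hn⟩ =
        ∏ q : T ⧸ W, ψ ⟨QuotientGroup.mk' (Zu T 3) (q.out * u * q.out⁻¹),
          mem_V (h.conj_W hu _)⟩ := by
  have hWn := h.normalW
  have hVn := h.normalV
  letI : CommGroup ↥(V W) :=
    { (inferInstance : Group ↥(V W)) with
      mul_comm := fun a b => Subtype.ext (h.V_facts.2.1 a a.2 b b.2) }
  let F : T ⧸ W → ↥(V W) := fun q => ⟨QuotientGroup.mk' (Zu T 3) (q.out * u * q.out⁻¹),
          mem_V (h.conj_W hu _)⟩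
  have hF : ∀ g : T, F (QuotientGroup.mk g) = ⟨QuotientGroup.mk' (Zu T 3) (g * u * g⁻¹),
      mem_V (h.conj_W hu _)⟩ := by
    intro g
    apply Subtype.ext
    show QuotientGroup.mk' (Zu T 3) ((QuotientGroup.mk g : T ⧸ W).out * u *
      (QuotientGroup.mk g : T ⧸ W).out⁻¹) = QuotientGroup.mk' (Zu T 3) (g * u * g⁻¹)
    obtain ⟨k, hk⟩ := QuotientGroup.mk_out_eq_mul W g
    rw [hk]
    have e : (g * (k : T)) * u * (g * k)⁻¹ = g * (k * u * (k : T)⁻¹) * g⁻¹ := by group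
    have e2 : QuotientGroup.mk' (Zu T 3) ((k : T) * u * (k : T)⁻¹) =
        QuotientGroup.mk' (Zu T 3) u := by
      rw [map_mul, map_mul, map_inv, h.V_facts.2.1 _ (mem_V k.2) _ (mem_V hu),
        mul_inv_cancel_right]
    rw [e, map_mul, map_mul, e2, ← map_mul, ← map_mul]
  let N : ↥(V W) := ∏ q : T ⧸ W, F q
  obtain ⟨n, hn, hnN⟩ := N.2
  refine ⟨n, ?_, hn, ?_⟩
  · rw [RuBase.mem_upper_quot, Subgroup.mem_center_iff]
    intro g'
    obtain ⟨g, rfl⟩ := QuotientGroup.mk'_surjective (Zu T 3) g'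
    let c : ↥(V W) →* ↥(V W) :=
      { toFun := fun v => ⟨QuotientGroup.mk' (Zu T 3) g * v * (QuotientGroup.mk' (Zu T 3) g)⁻¹,
          hVn.conj_mem v v.2 _⟩
        map_one' := by apply Subtype.ext; simp
        map_mul' := by
          intro a b
          apply Subtype.ext
          simp only [Subgroup.coe_mul]
          group }
    have hcN : c N = N := by
      show c (∏ q : T ⧸ W, F q) = ∏ q : T ⧸ W, F q
      rw [map_prod]
      apply Fintype.prod_equiv (MulAction.toPerm g)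
      intro q
      obtain ⟨k, rfl⟩ := QuotientGroup.mk_surjective q
      show c (F (QuotientGroup.mk k)) = F (QuotientGroup.mk (g * k))
      rw [hF, hF]
      apply Subtype.ext
      show QuotientGroup.mk' (Zu T 3) g * QuotientGroup.mk' (Zu T 3) (k * u * k⁻¹) *
        (QuotientGroup.mk' (Zu T 3) g)⁻¹ = QuotientGroup.mk' (Zu T 3) (g * k * u * (g * k)⁻¹)
      rw [← map_mul, ← map_inv, ← map_mul]
      congr 1
      group
    have h1 := congrArg Subtype.val hcN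
    have h2 : QuotientGroup.mk' (Zu T 3) g * (N : T ⧸ Zu T 3) * (QuotientGroup.mk' (Zu T 3) g)⁻¹
      = N := h1
    rw [← hnN] at h2
    exact mul_inv_eq_iff_eq_mul.1 h2
  · intro ψ
    have h1 : (⟨QuotientGroup.mk' (Zu T 3) n, mem_V hn⟩ : ↥(V W)) = N := Subtype.ext hnN
    rw [h1]
    exact map_prod ψ F Finset.univ

/-- The situation to be excluded: `Z_4 ≤ Z(W)`. -/
theorem sum_eq_zero (h : Hyp T W) (h4 : ∀ z ∈ Zu T 4, ∀ w ∈ W, z * w = w * z)
    [Fintype (T ⧸ W)] {x u : T} (hx : x ∈ W) (hu : u ∈ W) :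
    ∑ q : T ⧸ W, cf x (q.out * u * q.out⁻¹) = 0 := by
  obtain ⟨n, hn4, hnW, hn⟩ := h.norm_mem hu
  obtain ⟨ψ, hψ⟩ := h.exists_psi (cf x) (fun a ha b hb => h.cf_mul_right hx ha hb)
    (fun z hz => h.cf_Z3 hx hz)
  have h1 := hn ψ
  rw [hψ n hnW] at h1
  have h2 : cf x n = 0 := by
    rw [cf_eq_zero, commutatorElement_eq_one_iff_mul_comm.2 (h4 n hn4 x hx).symm]
    exact one_mem _
  rw [h2] at h1
  have h3 : ∏ q : T ⧸ W, ψ ⟨QuotientGroup.mk' (Zu T 3) (q.out * u * q.out⁻¹),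
          mem_V (h.conj_W hu _)⟩ =
      Multiplicative.ofAdd (∑ q : T ⧸ W, cf x (q.out * u * q.out⁻¹)) := by
    rw [ofAdd_sum]
    apply Finset.prod_congr rfl
    intro q _
    exact hψ _ (h.conj_W hu _)
  rw [h3] at h1
  exact (Multiplicative.ofAdd.injective h1).symm

theorem cf_z (h : Hyp T W) (h4 : ∀ z ∈ Zu T 4, ∀ w ∈ W, z * w = w * z) (hWn : W.Normal)
    (e : T ⧸ W ≃* DihedralGroup 4) {z : T} (hz : e (QuotientGroup.mk z) = DihedralGroup.r 2)
    {x : T} (hx : x ∈ W) (g : T) :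
    cf x (g * x * g⁻¹) = cf x ((g * z) * x * (g * z)⁻¹) := by
  have := h.fin
  letI : Fintype (T ⧸ W) := Fintype.ofFinite _
  let κ : DihedralGroup 4 → ZMod 2 := fun d => cf x ((e.symm d).out * x * (e.symm d).out⁻¹)
  have hκ : ∀ g : T, κ (e (QuotientGroup.mk g)) = cf x (g * x * g⁻¹) := by
    intro g
    show cf x ((e.symm (e (QuotientGroup.mk g))).out * x * _) = _
    rw [MulEquiv.symm_apply_apply]
    exact h.cf_out hx hx g
  let A' : Subgroup (DihedralGroup 4) := ((A T).map (QuotientGroup.mk' W)).map e.toMonoidHom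
  have hA'i : A'.index = 2 := by
    rw [← h.index_A.1]
    show (((A T).map (QuotientGroup.mk' W)).map (e : T ⧸ W →* DihedralGroup 4)).index = _
    rw [Subgroup.index_map_equiv]
    apply Subgroup.index_map_eq
    · exact QuotientGroup.mk'_surjective _
    · rw [QuotientGroup.ker_mk']; exact h.W_le_A
  have hA'mem : ∀ d ∈ A', ∃ a ∈ A T, e (QuotientGroup.mk a) = d := by
    rintro _ ⟨_, ⟨a, ha, rfl⟩, rfl⟩
    exact ⟨a, ha, rfl⟩
  have hsq : ∀ d ∈ A', d * d = 1 := by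
    intro d hd
    obtain ⟨a, ha, rfl⟩ := hA'mem d hd
    rw [← map_mul, ← QuotientGroup.mk_mul, ← pow_two,
      (QuotientGroup.eq_one_iff (a ^ 2)).2 (h.sq_A ha), map_one]
  have h0 : ∀ d ∈ A', κ d = 0 := by
    intro d hd
    obtain ⟨a, ha, rfl⟩ := hA'mem d hd
    rw [hκ]
    exact h.cf_A hx ha
  have hinv : ∀ d, κ d⁻¹ = κ d := by
    intro d
    obtain ⟨q, rfl⟩ := e.surjective d
    obtain ⟨g, rfl⟩ := QuotientGroup.mk_surjective q
    rw [← map_inv, ← QuotientGroup.mk_inv, hκ, hκ, inv_inv]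
    exact h.cf_inv_conj x g
  have hsum : ∑ d, κ d = 0 := by
    rw [← h.sum_eq_zero h4 hx hx]
    symm
    apply Fintype.sum_equiv e.toEquiv
    intro q
    show _ = cf x ((e.symm (e q)).out * x * (e.symm (e q)).out⁻¹)
    rw [MulEquiv.symm_apply_apply]
  have key := dihedral_fact κ A' hA'i hsq h0 hinv hsum (e (QuotientGroup.mk g))
  rw [← hz, ← map_mul, ← QuotientGroup.mk_mul, hκ, hκ] at key
  exact key

/-- The radical of the form contains `[W, z]`. -/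
theorem cf_rad (h : Hyp T W) (h4 : ∀ z ∈ Zu T 4, ∀ w ∈ W, z * w = w * z) (hWn : W.Normal)
    (e : T ⧸ W ≃* DihedralGroup 4) {z : T} (hz : e (QuotientGroup.mk z) = DihedralGroup.r 2)
    {x u : T} (hx : x ∈ W) (hu : u ∈ W) : cf x u + cf x (z * u * z⁻¹) = 0 := by
  have := h.fin
  have hVn := h.normalV
  have hcen : Nat.card ↥(V W ⊓ center (T ⧸ Zu T 3)) ≤ 2 := by
    calc _ ≤ Nat.card ↥(center (T ⧸ Zu T 3)) := Subgroup.card_le_of_le inf_le_right
      _ = 2 := h.card_center_quot le_rfl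
      _ ≤ 2 := le_rfl
  obtain ⟨v₀, hv₀⟩ := RuBase.exists_generator (h.two.to_quotient (Zu T 3)) (V W) (V W)
    h.V_facts.1 h.V_facts.2.1 hcen (by rw [h.V_facts.2.2.1, h.V_facts.2.2.2])
  obtain ⟨w₀, hw₀, hw₀v⟩ := v₀.2
  have hv₀' : ∀ ψ : ↥(V W) →* Multiplicative (ZMod 2),
      (∀ g : T, ψ ⟨QuotientGroup.mk' (Zu T 3) (g * w₀ * g⁻¹), mem_V (h.conj_W hw₀ g)⟩ = 1) →
      ∀ v, ψ v = 1 := by
    intro ψ hψ
    apply hv₀
    intro g'
    obtain ⟨g, rfl⟩ := QuotientGroup.mk'_surjective (Zu T 3) g'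
    have h1 := hψ g
    convert h1 using 2
    apply Subtype.ext
    show QuotientGroup.mk' (Zu T 3) g * (v₀ : T ⧸ Zu T 3) * (QuotientGroup.mk' (Zu T 3) g)⁻¹ =
      QuotientGroup.mk' (Zu T 3) (g * w₀ * g⁻¹)
    rw [map_mul, map_mul, map_inv, hw₀v]
  -- first: `cf (h w₀ h⁻¹) (g w₀ g⁻¹) + cf (h w₀ h⁻¹) (g z w₀ z⁻¹ g⁻¹) = 0`
  have step1 : ∀ k g : T, cf (k * w₀ * k⁻¹) (g * w₀ * g⁻¹) +
      cf (k * w₀ * k⁻¹) ((g * z) * w₀ * (g * z)⁻¹) = 0 := by
    intro k g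
    have e1 : g * w₀ * g⁻¹ = k * ((k⁻¹ * g) * w₀ * (k⁻¹ * g)⁻¹) * k⁻¹ := by group
    have e2 : (g * z) * w₀ * (g * z)⁻¹ =
        k * ((k⁻¹ * g * z) * w₀ * (k⁻¹ * g * z)⁻¹) * k⁻¹ := by group
    rw [e1, e2, h.cf_conj, h.cf_conj, h.cf_z h4 hWn e hz hw₀ (k⁻¹ * g)]
    generalize cf w₀ ((k⁻¹ * g * z) * w₀ * (k⁻¹ * g * z)⁻¹) = a
    revert a; decide
  -- second: for all `x ∈ W`
  have step2 : ∀ x ∈ W, ∀ g : T, cf x (g * w₀ * g⁻¹) + cf x ((g * z) * w₀ * (g * z)⁻¹) = 0 := by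
    intro x hx g
    obtain ⟨ψ, hψ⟩ := h.exists_psi (fun x => cf x (g * w₀ * g⁻¹) +
        cf x ((g * z) * w₀ * (g * z)⁻¹)) (by
      intro a ha b hb
      rw [h.cf_symm (a * b), h.cf_symm (a * b), h.cf_mul_right (h.conj_W hw₀ _) ha hb,
        h.cf_mul_right (h.conj_W hw₀ _) ha hb, h.cf_symm _ a, h.cf_symm _ a, h.cf_symm _ b,
        h.cf_symm _ b]
      ring) (by
      intro y hy
      rw [h.cf_symm y, h.cf_symm y, h.cf_Z3 (h.conj_W hw₀ _) hy, h.cf_Z3 (h.conj_W hw₀ _) hy,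
        add_zero])
    have h1 := hv₀' ψ (fun k => by
      rw [hψ _ (h.conj_W hw₀ k), step1 k g]; rfl) ⟨QuotientGroup.mk' (Zu T 3) x, mem_V hx⟩
    rw [hψ _ hx] at h1
    exact Multiplicative.ofAdd.injective h1
  -- third
  have hzc : ∀ g : T, ∃ w ∈ W, z * g = (g * z) * w := by
    intro g
    refine ⟨(g * z)⁻¹ * (z * g), ?_, by group⟩
    rw [← QuotientGroup.eq]
    apply e.injective
    rw [QuotientGroup.mk_mul, QuotientGroup.mk_mul, map_mul, map_mul, hz]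
    generalize e (QuotientGroup.mk g) = d
    revert d
    decide
  obtain ⟨ψ, hψ⟩ := h.exists_psi (fun u => cf x u + cf x (z * u * z⁻¹)) (by
      intro a ha b hb
      have e1 : z * (a * b) * z⁻¹ = (z * a * z⁻¹) * (z * b * z⁻¹) := by group
      rw [e1, h.cf_mul_right hx ha hb, h.cf_mul_right hx (h.conj_W ha z) (h.conj_W hb z)]
      ring) (by
      intro y hy
      have hn : (Zu T 3).Normal := inferInstance
      rw [h.cf_Z3 hx hy, h.cf_Z3 hx (hn.conj_mem y hy z), add_zero])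
  have h1 := hv₀' ψ (fun k => by
      rw [hψ _ (h.conj_W hw₀ k)]
      obtain ⟨w, hw, hw'⟩ := hzc k
      have e1 : z * (k * w₀ * k⁻¹) * z⁻¹ = (z * k) * w₀ * (z * k)⁻¹ := by group
      rw [e1, hw', h.cf_coset hx hw₀ hw, step2 x hx k]; rfl)
      ⟨QuotientGroup.mk' (Zu T 3) u, mem_V hu⟩
  rw [hψ _ hu] at h1
  exact Multiplicative.ofAdd.injective h1

end Hyp

end Cfsg.Agent.H303.RuMain
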