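import Mathlib
import Cfsg.Agent.H303.RuCent

set_option autoImplicit false
set_option linter.style.haveILetI false
set_option linter.unnecessarySimpa false

/-! 2-groups of "Rudvalis type": `Z(W) = Z_3(T)`, end of the proof. -/

namespace Cfsg.Agent.H303.RuMain

open Subgroup
open scoped commutatorElement

local notation "Zu" => Subgroup.upperCentralSeries

variable {T : Type*} [Group T]

namespace Hyp

variable {W : Subgroup T}

theorem cf_one_right (h : Hyp T W) {x : T} (hx : x ∈ W) : cf x 1 = 0 :=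
  h.cf_Z3 hx (one_mem _)

theorem cf_inv_right (h : Hyp T W) {x y : T} (hx : x ∈ W) (hy : y ∈ W) :
    cf x y⁻¹ = cf x y := by
  have h1 := h.cf_mul_right hx hy (inv_mem hy)
  rw [mul_inv_cancel, h.cf_one_right hx] at h1
  generalize cf x y = a at *
  generalize cf x y⁻¹ = b at *
  revert a b
  decide

theorem sf_mul (h : Hyp T W) {x y : T} (hx : x ∈ W) (hy : y ∈ W) :
    sf (x * y) = sf x + sf y + cf x y := by
  have h1 : cf x y = cf x⁻¹ y := by
    rw [h.cf_symm, h.cf_symm x⁻¹, h.cf_inv_right hy hx]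
  have h2 : sf x + sf y + cf x y = sf x + (cf x⁻¹ y + sf y) := by rw [h1]; ring
  rw [h2]
  apply zmod2_ext
  rw [zmod2_add, zmod2_add, sf_eq_zero, sf_eq_zero, sf_eq_zero, cf_eq_zero, h.sq_mul,
    h.mul3 (h.sq_W_mem hx) (mul_mem (h.comm_W_mem (inv_mem hx) hy) (h.sq_W_mem hy)),
    h.mul3 (h.comm_W_mem (inv_mem hx) hy) (h.sq_W_mem hy)]

theorem sf_conj (_h : Hyp T W) (g x : T) : sf (g * x * g⁻¹) = sf x := by
  apply zmod2_ext
  rw [sf_eq_zero, sf_eq_zero]
  have e : (g * x * g⁻¹) ^ 2 = g * x ^ 2 * g⁻¹ := by rw [pow_two, pow_two]; group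
  rw [e]
  have hn : (Zu T 2).Normal := inferInstance
  constructor
  · intro hm
    have := hn.conj_mem _ hm g⁻¹
    simpa [mul_assoc] using this
  · intro hm
    exact hn.conj_mem _ hm g

theorem sf_Z3 (h : Hyp T W) {z : T} (hz : z ∈ Zu T 3) : sf z = 0 := by
  rw [sf_eq_zero, h.sq_Z3 z hz]
  exact one_mem _

theorem contra (h : Hyp T W) (h4 : ∀ z ∈ Zu T 4, ∀ w ∈ W, z * w = w * z) : False := by
  have := h.fin
  have hWn := h.normalW
  have hVn := h.normalV
  obtain ⟨e⟩ := h.dihedral hWn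
  obtain ⟨z, hz'⟩ := QuotientGroup.mk_surjective (e.symm (DihedralGroup.r 2))
  have hz : e (QuotientGroup.mk z) = DihedralGroup.r 2 := by
    rw [hz', MulEquiv.apply_symm_apply]
  -- `z ∈ A`
  have hzA : z ∈ A T := by
    obtain ⟨g, hg⟩ := QuotientGroup.mk_surjective (e.symm (DihedralGroup.r 1))
    have hg' : e (QuotientGroup.mk g) = DihedralGroup.r 1 := by
      rw [hg, MulEquiv.apply_symm_apply]
    have h1 : (QuotientGroup.mk (g * g) : T ⧸ W) = QuotientGroup.mk z := by
      apply e.injective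
      rw [QuotientGroup.mk_mul, map_mul, hg', hz]
      decide
    have h2 : (g * g)⁻¹ * z ∈ W := QuotientGroup.eq.1 h1
    have h3 : g * g ∈ A T := Subgroup.mul_self_mem_of_index_two h.index_A.1 g
    have e1 : z = (g * g) * ((g * g)⁻¹ * z) := by group
    rw [e1]
    exact mul_mem h3 (h.W_le_A h2)
  set mk := QuotientGroup.mk' (Zu T 3) with hmk
  set zb := mk z with hzb
  -- `z` is central modulo `W`
  have hzc : ∀ g : T, ∃ w ∈ W, z * g = (g * z) * w := by
    intro g
    refine ⟨(g * z)⁻¹ * (z * g), ?_, by group⟩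
    rw [← QuotientGroup.eq]
    apply e.injective
    rw [QuotientGroup.mk_mul, QuotientGroup.mk_mul, map_mul, map_mul, hz]
    generalize e (QuotientGroup.mk g) = d
    revert d
    decide
  -- the fixed points of `z` on `V`
  let Vz : Subgroup (T ⧸ Zu T 3) := V W ⊓ centralizer {zb}
  have hVz : ∀ x, x ∈ Vz ↔ x ∈ V W ∧ zb * x = x * zb := by
    intro x
    show x ∈ V W ⊓ centralizer {zb} ↔ _
    rw [Subgroup.mem_inf, Subgroup.mem_centralizer_singleton_iff]
    exact and_congr_right fun _ => eq_comm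
  have hVzn : Vz.Normal := by
    refine ⟨fun x hx g' => ?_⟩
    obtain ⟨g, rfl⟩ := QuotientGroup.mk'_surjective (Zu T 3) g'
    rw [hVz] at hx ⊢
    obtain ⟨hxV, hxz⟩ := hx
    refine ⟨hVn.conj_mem x hxV _, ?_⟩
    obtain ⟨w, hw, hw'⟩ := hzc g
    have e1 : zb * mk g = mk g * zb * mk w := by
      rw [hzb, ← map_mul, hw', map_mul, map_mul]
    have e2 : mk w * x = x * mk w := h.V_facts.2.1 _ (mem_V hw) _ hxV
    have e3 : zb * (mk g * x * (mk g)⁻¹) * zb⁻¹ = mk g * x * (mk g)⁻¹ := by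
      calc zb * (mk g * x * (mk g)⁻¹) * zb⁻¹ = (zb * mk g) * x * (zb * mk g)⁻¹ := by group
        _ = (mk g * zb) * ((mk w * x) * (mk w)⁻¹) * (mk g * zb)⁻¹ := by rw [e1]; group
        _ = (mk g * zb) * x * (mk g * zb)⁻¹ := by rw [e2, mul_inv_cancel_right]
        _ = mk g * ((zb * x) * zb⁻¹) * (mk g)⁻¹ := by group
        _ = mk g * x * (mk g)⁻¹ := by rw [hxz, mul_inv_cancel_right]
    exact mul_inv_eq_iff_eq_mul.1 e3
  let KT : Subgroup T := (Subgroup.zpowers (DihedralGroup.r 2 : DihedralGroup 4)).comap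
    (e.toMonoidHom.comp (QuotientGroup.mk' W))
  have hKTi : KT.index = 4 := by
    have h1 : KT.index = (Subgroup.zpowers (DihedralGroup.r 2 : DihedralGroup 4)).index := by
      apply Subgroup.index_comap_of_surjective
      exact e.surjective.comp (QuotientGroup.mk'_surjective W)
    rw [h1]
    have h2 := (Subgroup.zpowers (DihedralGroup.r 2 : DihedralGroup 4)).card_mul_index
    have h3 : orderOf (DihedralGroup.r 2 : DihedralGroup 4) = 2 := by
      rw [orderOf_eq_prime_iff]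
      constructor
      · decide
      · decide
    have h4 : Nat.card (DihedralGroup 4) = 8 := by
      rw [Nat.card_eq_fintype_card]; decide
    rw [Nat.card_zpowers, h3, h4] at h2
    omega
  have hKT : ∀ k ∈ KT, k ∈ W ∨ z⁻¹ * k ∈ W := by
    intro k hk
    have h1 : e (QuotientGroup.mk k) ∈ Subgroup.zpowers (DihedralGroup.r 2 : DihedralGroup 4) := hk
    obtain ⟨n, hn⟩ := Subgroup.mem_zpowers_iff.1 h1
    have h2 : ∀ n : ℤ, (DihedralGroup.r 2 : DihedralGroup 4) ^ n = 1 ∨
        (DihedralGroup.r 2 : DihedralGroup 4) ^ n = DihedralGroup.r 2 := by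
      intro n
      have hsq : (DihedralGroup.r 2 : DihedralGroup 4) ^ (2 : ℤ) = 1 := by decide
      rcases Int.even_or_odd' n with ⟨m, rfl | rfl⟩
      · left; rw [zpow_mul, hsq, one_zpow]
      · right; rw [zpow_add, zpow_mul, hsq, one_zpow, one_mul, zpow_one]
    rcases h2 n with h3 | h3
    · left
      rw [h3] at hn
      rw [← QuotientGroup.eq_one_iff]
      apply e.injective
      rw [← hn, map_one]
    · right
      rw [h3, ← hz] at hn
      rw [← QuotientGroup.eq]
      exact e.injective hn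
  have hZ3KT : Zu T 3 ≤ KT := by
    intro x hx
    show e (QuotientGroup.mk x) ∈ Subgroup.zpowers (DihedralGroup.r 2 : DihedralGroup 4)
    rw [(QuotientGroup.eq_one_iff x).2 (h.Z3_le_W hx), map_one]
    exact one_mem _
  have hKbi : (KT.map mk).index = 4 := by
    rw [← hKTi]
    apply Subgroup.index_map_eq
    · exact QuotientGroup.mk'_surjective _
    · rw [hmk, QuotientGroup.ker_mk']; exact hZ3KT
  have hKcomm : ∀ k ∈ KT.map mk, ∀ x ∈ Vz, k * x = x * k := by
    rintro _ ⟨k, hk, rfl⟩ x hx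
    rw [hVz] at hx
    rcases hKT k hk with h1 | h1
    · exact h.V_facts.2.1 _ (mem_V h1) _ hx.1
    · have e1 : mk k = zb * mk (z⁻¹ * k) := by
        rw [hzb, ← map_mul]; congr 1; group
      have e2 : mk (z⁻¹ * k) * x = x * mk (z⁻¹ * k) := h.V_facts.2.1 _ (mem_V h1) _ hx.1
      rw [e1]
      calc zb * mk (z⁻¹ * k) * x = zb * (mk (z⁻¹ * k) * x) := by group
        _ = (zb * x) * mk (z⁻¹ * k) := by rw [e2]; group
        _ = x * (zb * mk (z⁻¹ * k)) := by rw [hx.2]; group
  have hcardVz : Nat.card ↥Vz ≤ 2 ^ 4 := by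
    rw [← hKbi]
    apply RuBase.card_le_two_pow (h.two.to_quotient (Zu T 3)) Vz (KT.map mk)
    · intro x hx
      exact h.V_facts.1 x ((hVz x).1 hx).1
    · exact hKcomm
    · calc _ ≤ Nat.card ↥(center (T ⧸ Zu T 3)) := Subgroup.card_le_of_le inf_le_right
        _ = 2 := h.card_center_quot le_rfl
        _ ≤ 2 := le_rfl
  -- the map `v ↦ v v^z`
  let θ : ↥(V W) →* ↥(V W) :=
    { toFun := fun v => ⟨v * (zb * v * zb⁻¹), (V W).mul_mem v.2 (hVn.conj_mem v v.2 zb)⟩
      map_one' := by apply Subtype.ext; simp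
      map_mul' := by
        intro a b
        apply Subtype.ext
        have h1 := h.V_facts.2.1 (b : T ⧸ Zu T 3) b.2 (zb * a * zb⁻¹) (hVn.conj_mem a a.2 zb)
        show (a : T ⧸ Zu T 3) * b * (zb * (a * b) * zb⁻¹) =
          a * (zb * a * zb⁻¹) * (b * (zb * b * zb⁻¹))
        calc (a : T ⧸ Zu T 3) * b * (zb * (a * b) * zb⁻¹) =
            a * (b * (zb * a * zb⁻¹)) * (zb * b * zb⁻¹) := by group
          _ = a * (zb * a * zb⁻¹) * (b * (zb * b * zb⁻¹)) := by rw [h1]; group }
  have hker : Nat.card ↥θ.ker ≤ 2 ^ 4 := by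
    refine le_trans ?_ hcardVz
    apply Nat.card_le_card_of_injective (fun v : ↥θ.ker => (⟨(v : ↥(V W)), by
      rw [hVz]
      refine ⟨(v : ↥(V W)).2, ?_⟩
      have h1 : θ v = 1 := v.2
      have h2 : ((v : ↥(V W)) : T ⧸ Zu T 3) * (zb * (v : ↥(V W)) * zb⁻¹) = 1 :=
        congrArg Subtype.val h1
      have h3 := h.V_facts.1 _ (v : ↥(V W)).2
      rw [pow_two] at h3
      have h4 : zb * (v : ↥(V W)) * zb⁻¹ = ((v : ↥(V W)) : T ⧸ Zu T 3) :=
        mul_left_cancel (h2.trans h3.symm)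
      exact mul_inv_eq_iff_eq_mul.1 h4⟩ : ↥Vz))
    intro a b hab
    have := congrArg Subtype.val hab
    exact Subtype.ext (Subtype.ext this)
  have hrange : θ.range.index ≤ 16 := by
    have h1 := θ.range.card_mul_index
    have h2 := θ.ker.card_mul_index
    have h3 : θ.ker.index = Nat.card ↥θ.range := Subgroup.index_ker θ
    rw [h3, h.V_facts.2.2.2] at h2
    rw [h.V_facts.2.2.2, ← h2] at h1
    have h4 : 0 < Nat.card ↥θ.range := Nat.card_pos
    rw [mul_comm (Nat.card ↥θ.ker)] at h1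
    have h5 := Nat.eq_of_mul_eq_mul_left h4 h1
    rw [h5]
    exact hker
  have hrn : θ.range.Normal := by
    refine ⟨fun x hx g => ?_⟩
    have h1 : g * x * g⁻¹ = x := by
      apply Subtype.ext
      have := h.V_facts.2.1 _ g.2 _ x.2
      show (g : T ⧸ Zu T 3) * x * (g : T ⧸ Zu T 3)⁻¹ = x
      rw [this, mul_inv_cancel_right]
    rw [h1]; exact hx
  let π : ↥W →* ↥(V W) := mk.subgroupMap W
  have hπs : Function.Surjective π := mk.subgroupMap_surjective W
  let Q : Subgroup ↥W := θ.range.comap π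
  have hQi : Q.index ≤ 16 := by
    have : Q.index = θ.range.index := Subgroup.index_comap_of_surjective _ hπs
    rw [this]; exact hrange
  -- elements of `Q`
  have hQ : ∀ q ∈ Q, ∃ u ∈ W, ∃ c ∈ Zu T 3, (q : T) = u * (z * u * z⁻¹) * c := by
    intro q hq
    obtain ⟨v, hv⟩ := hq
    obtain ⟨u, hu, huv⟩ := v.2
    refine ⟨u, hu, (u * (z * u * z⁻¹))⁻¹ * q, ?_, by group⟩
    rw [← mk_eq_iff, map_mul, map_mul, map_mul, map_inv]
    have h1 : (v : T ⧸ Zu T 3) * (zb * v * zb⁻¹) = mk q := congrArg Subtype.val hv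
    rw [← h1, ← huv]
  obtain ⟨Y, hYi, hY⟩ := RuBase.exists_singular Q hQi
    (by
      intro x
      show π (x * x) ∈ θ.range
      have h1 : π (x * x) = 1 := by
        apply Subtype.ext
        have := h.V_facts.1 (mk x) (mem_V x.2)
        rw [pow_two] at this
        rw [map_mul]
        exact this
      rw [h1]; exact one_mem _)
    (fun x => sf (x : T)) (fun x y => cf (x : T) (y : T))
    (fun x y w => h.cf_mul_right x.2 y.2 w.2) (fun x y => h.sf_mul x.2 y.2)
    (fun x => h.cf_self x) (fun x y => h.cf_symm x y)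
    (by
      intro x q hq
      obtain ⟨u, hu, c, hc, hqe⟩ := hQ q hq
      show cf (x : T) (q : T) = 0
      rw [hqe, h.cf_mul_right x.2 (mul_mem hu (h.conj_W hu z)) (h.Z3_le_W hc),
        h.cf_mul_right x.2 hu (h.conj_W hu z), h.cf_rad h4 hWn e hz x.2 hu, h.cf_Z3 x.2 hc,
        add_zero])
    (by
      intro q hq
      obtain ⟨u, hu, c, hc, hqe⟩ := hQ q hq
      show sf (q : T) = 0
      rw [hqe, h.sf_mul (mul_mem hu (h.conj_W hu z)) (h.Z3_le_W hc),
        h.sf_mul hu (h.conj_W hu z), h.sf_conj, h.sf_Z3 hc, h.cf_A hu hzA,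
        h.cf_Z3 (mul_mem hu (h.conj_W hu z)) hc]
      generalize sf u = a
      revert a; decide)
  have hle := h.frattini_le Y ((Zu T 2).subgroupOf W) hYi (fun y hy => by
    rw [Subgroup.mem_subgroupOf]
    exact sf_eq_zero.1 (hY y hy))
  obtain ⟨y, hy, hy2⟩ := h.exists_y
  apply hy2
  have hyP : y ∈ P W := by rw [h.orders.2.1]; exact hy
  have h1 := (mem_P (h.Z3_le_W hy)).1 hyP
  have h2 := hle h1
  rwa [Subgroup.mem_subgroupOf] at h2

/-- `Z(W) = Z_3`. -/
theorem center_eq (h : Hyp T W) : (center ↥W).map W.subtype = Zu T 3 := by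
  have := h.fin
  have hWn := h.normalW
  set C := (center ↥W).map W.subtype with hC
  have hCn : C.Normal := by rw [hC]; infer_instance
  have hmem : ∀ x, x ∈ C ↔ x ∈ W ∧ ∀ w ∈ W, x * w = w * x := by
    intro x
    rw [hC, Subgroup.mem_map]
    constructor
    · rintro ⟨c, hc, rfl⟩
      refine ⟨c.2, fun w hw => ?_⟩
      have := Subgroup.mem_center_iff.1 hc ⟨w, hw⟩
      exact (congrArg Subtype.val this).symm
    · rintro ⟨hx, hx'⟩
      refine ⟨⟨x, hx⟩, ?_, rfl⟩
      rw [Subgroup.mem_center_iff]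
      intro w
      exact Subtype.ext (hx' w w.2).symm
  have h3 : Zu T 3 ≤ C := by
    intro z hz
    rw [hmem]
    exact ⟨h.Z3_le_W hz, fun w hw => h.comm_Z3_W hz hw⟩
  by_contra hne
  have hnle : ¬ C ≤ Zu T 3 := fun hle => hne (le_antisymm hle h3)
  have h1 := RuBase.two_mul_card_le h.two C 3 hnle
  rw [inf_eq_right.2 h3, h.cardZ 3 (by norm_num)] at h1
  have h2 : C ⊓ Zu T 4 = Zu T 4 :=
    Subgroup.eq_of_le_of_card_ge inf_le_right (by rw [h.cardZ 4 le_rfl]; omega)
  have h4 : Zu T 4 ≤ C := inf_eq_right.1 h2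
  exact h.contra (fun z hz w hw => ((hmem z).1 (h4 hz)).2 w hw)

end Hyp

end Cfsg.Agent.H303.RuMain
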